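import Cfsg.Agent.SylOrb.Geo4

/-!
For a transitive group and a nontrivial Sylow `p`-subgroup (`p` odd), the number of fixed points
plus the number of orbits is at most the degree.
-/

set_option autoImplicit false
set_option linter.unusedSectionVars false

namespace Cfsg.Agent.SylOrb

open MulAction Set
open scoped Pointwise

universe u

variable {G : Type u} [Group G] {p : ℕ} [Finite G] [hp : Fact p.Prime]

local notation "σ" => sg G p

theorem SV.mono {m n : ℕ} (h : SV G p n) (e : m ≤ n) : SV G p m :=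
  fun Y _ _ L x P h1 h2 h3 h4 => h Y L x P h1 h2 h3 (h4.trans e)

theorem tv {Ω : Type u} [MulAction G Ω] [Finite Ω] (odd : p ≠ 2)
    (trans : ∀ x y : Ω, ∃ g : G, g • x = y) (prim : ∀ x : Ω, ⊤ ⊓ stabilizer G x ⋖ ⊤)
    (ih : ∀ x : Ω, SV G p ({x}ᶜ : Set Ω).ncard) {P : Sylow p G} (move : ∃ x : Ω, P ∉ σ x) :
    Concl P (univ : Set Ω) := by
  have iu : Inv (⊤ : Subgroup G) (univ : Set Ω) := fun _ _ _ _ => trivial
  have md : (univ : Set Ω).ncard ≡ (fx P (univ : Set Ω)).ncard [MOD p] := by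
    have := P.isPGroup'.card_modEq_card_fixedPoints Ω
    rw [ncard_univ, ← Nat.card_coe_set_eq]
    convert this using 3
    ext x
    simp [fx, sg, Subgroup.smul_def]
  have p0 : (0 : ℚ) < p := by exact_mod_cast hp.out.pos
  have p2 := hp.out.two_le
  rcases (fx P (univ : Set Ω)).eq_empty_or_nonempty with e | ⟨α, hα⟩
  · have h := del_lower P (univ : Set Ω)
    rw [Concl]
    rw [e, ncard_empty] at h md ⊢
    obtain ⟨k, hk⟩ := (Nat.modEq_zero_iff_dvd).1 md
    obtain ⟨x, -⟩ := move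
    have h1 : 0 < (univ : Set Ω).ncard := (ncard_pos (toFinite _)).2 ⟨x, trivial⟩
    rw [hk] at h h1 ⊢
    rcases (by omega : k = 0 ∨ k = 1 ∨ 2 ≤ k) with rfl | rfl | k2
    · omega
    · exact Or.inl ⟨by omega, by omega⟩
    · right
      have k2' : (2 : ℚ) ≤ k := by exact_mod_cast k2
      have p2' : (2 : ℚ) ≤ p := by exact_mod_cast p2
      push_cast at h ⊢
      refine le_of_mul_le_mul_left ?_ p0
      nlinarith [mul_nonneg (mul_nonneg p0.le (sub_nonneg.2 k2')) (show (0 : ℚ) ≤ p - 1 by linarith)]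
  have nd : ¬ p ∣ (fx P (univ : Set Ω)).ncard := fun e => not_dvd_orb (L := ⊤) le_top hα.2 (by
    rw [show orb ⊤ α = univ from eq_univ_of_forall fun y =>
      let ⟨g, e⟩ := trans α y; ⟨g, trivial, e⟩]
    exact (md.dvd_iff dvd_rfl).2 e)
  have d1 : ∀ x : Ω, ∀ Q ∈ σ x, del Q ({x}ᶜ : Set Ω) = del P (univ : Set Ω) + 1 := fun x Q hQ => by
    obtain ⟨g, rfl⟩ := exists_smul_eq G P Q
    rw [← iu.del_smul (g := g) trivial, del_sdiff _ (subset_univ {x}), ← compl_eq_univ_sdiff,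
      del_of_fixed (X := {x}) (by rintro _ rfl; exact hQ)]
    simp
  have f1 : (fx P (univ : Set Ω)).ncard = (fx P ({α}ᶜ : Set Ω)).ncard + 1 := by
    rw [← ncard_sdiff_singleton_add_one hα]
    congr 2
    ext x
    simp [fx, and_comm]
  have n1 : (univ : Set Ω).ncard = ({α}ᶜ : Set Ω).ncard + 1 := by
    rw [compl_eq_univ_sdiff, ncard_sdiff_singleton_add_one (mem_univ α)]
  have c1 : (fx P (univ : Set Ω)).ncard % p ≠ 0 := fun e => nd (Nat.dvd_of_mod_eq_zero e)
  by_cases M : Multi G p α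
  · refine Or.inr (not_lt.1 fun h => ?_)
    have c2 : (1 : ℚ) ≤ ((fx P (univ : Set Ω)).ncard % p : ℕ) := by
      exact_mod_cast Nat.pos_of_ne_zero c1
    refine Hyp.false ⟨trans, prim, fun x => ?_, fun Q => ?_, odd, ih, fun x Q hQ => ?_⟩ M hα.2
      (f1 ▸ nd) ?_
    · obtain ⟨g, rfl⟩ := trans α x
      exact ⟨g • P, smul_mem_sg.2 hα.2⟩
    · obtain ⟨g, rfl⟩ := exists_smul_eq G P Q
      obtain ⟨x, hx⟩ := move
      exact ⟨g • x, by rwa [smul_mem_sg]⟩
    · rw [d1 x Q hQ]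
      linarith
    · rw [d1 α P hα.2, ← f1]
      linarith
  · simp only [Multi, not_forall, not_not] at M
    obtain ⟨β, b1, b2⟩ := M
    obtain ⟨x, hx⟩ := move
    have := ih α Ω _ β P (le_gen hα.2) b2 ⟨x, b1.ge fun e => hx (e ▸ hα.2), hx⟩ (by rw [b1])
    rw [b1] at this
    rcases this with ⟨h1, h2⟩ | h
    · refine Or.inl ⟨by omega, lt_of_le_of_ne (by omega) fun e => nd (by rw [e])⟩
    · right
      rw [d1 α P hα.2] at h
      have : (fx P (univ : Set Ω)).ncard % p = (fx P ({α}ᶜ : Set Ω)).ncard % p + 1 := by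
        rw [f1] at c1 ⊢
        have := Nat.mod_lt (fx P ({α}ᶜ : Set Ω)).ncard hp.out.pos
        rw [Nat.add_mod, Nat.mod_eq_of_lt (show 1 < p by omega)] at c1 ⊢
        refine Nat.mod_eq_of_lt (lt_of_le_of_ne this fun e => c1 ?_)
        rw [e, Nat.mod_self]
      rw [this]
      push_cast
      linarith

theorem sv (odd : p ≠ 2) (n : ℕ) : ∀ (G : Type u) [Group G] [Finite G], SV G p n := by
  induction n with
  | zero =>
    intro G _ _ Y _ _ L x P _ _ _ h
    exact absurd ((ncard_pos (toFinite _)).2 ⟨x, mem_orb_self L x⟩) (by omega)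
  | succ n ih =>
  intro G _ _ Y _ _ L x P hP hc hm hn
  have e : orb L x = orbit L x := by
    ext y
    exact ⟨fun ⟨g, hg, e⟩ => ⟨⟨g, hg⟩, e⟩, fun ⟨g, e⟩ => ⟨g, g.2, e⟩⟩
  rw [e] at hm hn ⊢
  have s1 : ∀ y : orbit L x, P.subtype hP ∈ sg L p y ↔ P ∈ sg G p (y : Y) := fun y =>
    ⟨fun h g hg => congrArg Subtype.val (h ⟨g, hP hg⟩ hg), fun h g hg => Subtype.ext (h g hg)⟩
  have s2 : ∀ y : orbit L x, wt (P.subtype hP) y = wt P (y : Y) := fun y => by
    unfold wt
    rw [s1, ← ncard_image_of_injective _ Subtype.val_injective]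
    congr 5
    ext z
    exact ⟨fun ⟨_, ⟨g, hg, rfl⟩, e⟩ => ⟨g, hg, e⟩,
      fun ⟨g, hg, e⟩ => ⟨_, ⟨⟨g, hP hg⟩, hg, rfl⟩, e⟩⟩
  have s3 : (univ : Set (orbit L x)).ncard = (orbit L x).ncard := by
    rw [ncard_univ, Nat.card_coe_set_eq]
  have s4 : (fx (P.subtype hP) (univ : Set (orbit L x))).ncard = (fx P (orbit L x)).ncard := by
    rw [← ncard_image_of_injective _ Subtype.val_injective]
    congr 1
    ext z
    exact ⟨fun ⟨y, hy, e⟩ => e ▸ ⟨y.2, (s1 y).1 hy.2⟩,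
      fun hz => ⟨⟨z, hz.1⟩, ⟨trivial, (s1 _).2 hz.2⟩, rfl⟩⟩
  have s5 : del (P.subtype hP) (univ : Set (orbit L x)) = del P (orbit L x) := by
    unfold del
    exact Finset.sum_bij (fun y _ => (y : Y)) (fun y _ => by simp) (fun _ _ _ _ e => Subtype.ext e)
      (fun y hy => ⟨⟨y, by simpa using hy⟩, by simp, rfl⟩) fun y _ => s2 y
  have s6 : IsCoatom (stabilizer L (⟨x, mem_orbit_self x⟩ : orbit L x)) := by
    refine ⟨fun e1 => hc.lt.not_ge fun g hg => ⟨hg, ?_⟩, fun T hT => ?_⟩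
    · exact congrArg Subtype.val (e1.ge (Subgroup.mem_top ⟨g, hg⟩) :)
    · rcases hc.eq_or_eq (c := T.map L.subtype)
        (fun g hg => ⟨⟨g, hg.1⟩, hT.le (Subtype.ext hg.2), rfl⟩) (Subgroup.map_subtype_le T) with
        e1 | e1
      · refine absurd (fun g hg => ?_) hT.not_ge
        exact Subtype.ext (show (g : G) • x = x from (e1.le ⟨g, hg, rfl⟩).2)
      · refine eq_top_iff.2 fun g _ => ?_
        obtain ⟨k, hk, e2⟩ := e1.ge g.2
        rwa [← Subtype.ext e2]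
  have := tv (G := L) (Ω := orbit L x) odd (exists_smul_eq L) (fun y => ?_)
    (fun y => (ih L).mono ?_) (P := P.subtype hP) ?_
  · rwa [Concl, s3, s4, s5] at this
  · obtain ⟨g, rfl⟩ := exists_smul_eq L (⟨x, mem_orbit_self x⟩ : orbit L x) y
    rw [top_inf_eq, covBy_top_iff, stabilizer_smul_eq_stabilizer_map_conj]
    exact ((MulAut.conj g).mapSubgroup.isCoatom_iff _).2 s6
  · have := ncard_sdiff_singleton_add_one (mem_univ y)
    rw [compl_eq_univ_sdiff]
    omega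
  · obtain ⟨y, hy, h⟩ := hm
    exact ⟨⟨y, hy⟩, fun e => h ((s1 _).1 e)⟩

theorem del_univ_nonneg {Ω : Type*} [MulAction G Ω] [Finite Ω] (odd : p ≠ 2)
    (trans : ∀ x y : Ω, ∃ g : G, g • x = y) {P : Sylow p G} (move : ∃ x : Ω, P ∉ σ x) :
    0 ≤ del P (univ : Set Ω) := by
  refine del_nonneg (L := gen univ) P _ _ rfl (fun _ _ _ _ => trivial) fun x _ =>
    (sv odd _ G).nonneg (fun e => ?_) le_rfl (mem_univ P)
  obtain ⟨y, hy⟩ := move
  obtain ⟨g, rfl⟩ := trans x y
  exact hy (mem_sg_smul.2 (e trivial))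

theorem del_univ_eq {Ω : Type*} [MulAction G Ω] [Finite Ω] (P : Sylow p G) :
    del P (univ : Set Ω) = Nat.card Ω - Nat.card (orbitRel.Quotient (P : Subgroup G) Ω) -
      (fx P (univ : Set Ω)).ncard := by
  classical
  have := Fintype.ofFinite Ω
  have := Fintype.ofFinite (orbitRel.Quotient (P : Subgroup G) Ω)
  have h1 : ∀ x : Ω, wt P x = 1 - 1 / ((orb (P : Subgroup G) x).ncard : ℚ) -
      if P ∈ σ x then 1 else 0 := fun x => by
    unfold wt
    split_ifs with e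
    · rw [show orb (P : Subgroup G) x = {x} from subset_antisymm
        ((inv_singleton e).orb_subset rfl) (singleton_subset_iff.2 (mem_orb_self _ _))]
      simp
    · simp
  have h2 : ∑ x : Ω, 1 / ((orb (P : Subgroup G) x).ncard : ℚ) =
      Nat.card (orbitRel.Quotient (P : Subgroup G) Ω) := by
    rw [← Finset.sum_fiberwise (g := fun x => (Quotient.mk'' x : orbitRel.Quotient (P : Subgroup G) Ω)),
      Nat.card_eq_fintype_card, Fintype.card_eq_sum_ones, Nat.cast_sum]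
    refine Finset.sum_congr rfl fun q _ => ?_
    obtain ⟨y, rfl⟩ := Quotient.exists_rep q
    have e : ∀ x : Ω, (Quotient.mk'' x : orbitRel.Quotient (P : Subgroup G) Ω) = ⟦y⟧ ↔
        x ∈ orb (P : Subgroup G) y := fun x =>
      Quotient.eq''.trans ⟨fun ⟨g, e⟩ => ⟨g, g.2, e⟩, fun ⟨g, hg, e⟩ => ⟨⟨g, hg⟩, e⟩⟩
    rw [Finset.sum_congr rfl (g := fun _ => 1 / ((orb (P : Subgroup G) y).ncard : ℚ))
      fun x hx => by rw [orb_eq ((e x).1 (Finset.mem_filter.1 hx).2)], Finset.sum_const,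
      ← ncard_coe_finset, nsmul_eq_mul]
    have h3 : (0 : ℚ) < (orb (P : Subgroup G) y).ncard := by
      exact_mod_cast (ncard_pos (toFinite _)).2 ⟨y, mem_orb_self _ _⟩
    rw [show ((Finset.univ.filter _ : Finset Ω) : Set Ω) = orb (P : Subgroup G) y by
      ext x; simpa using e x]
    field_simp
    simp
  unfold del
  simp only [h1, Finset.sum_sub_distrib, Finite.toFinset_univ, h2, Finset.sum_boole]
  rw [← ncard_coe_finset, Nat.card_eq_fintype_card (α := Ω)]
  simp [fx]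

theorem main {Ω : Type*} [MulAction G Ω] [Finite Ω] (odd : p ≠ 2)
    (trans : ∀ x y : Ω, ∃ g : G, g • x = y) {P : Sylow p G} (move : ∃ x : Ω, P ∉ σ x) :
    (2 * p - 1) * Nat.card (orbitRel.Quotient (P : Subgroup G) Ω) ≤ p * Nat.card Ω := by
  have h1 := del_univ_nonneg odd trans move
  have h2 := del_lower P (univ : Set Ω)
  rw [del_univ_eq] at h1 h2
  rw [ncard_univ] at h2
  have p1 := hp.out.one_le
  have p1' : (1 : ℚ) ≤ p := by exact_mod_cast p1
  have : ((2 * p - 1 : ℕ) : ℚ) = 2 * p - 1 := by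
    rw [Nat.cast_sub (by omega)]
    simp
  rw [← Nat.cast_le (α := ℚ), Nat.cast_mul, this]
  push_cast
  nlinarith [mul_nonneg (sub_nonneg.2 p1') h1]

end Cfsg.Agent.SylOrb
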