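import Mathlib

/-!
Sets of Sylow subgroups fixing points: basic notions for the orbit count bound.
-/

set_option autoImplicit false
set_option linter.unusedSectionVars false

namespace Cfsg.Agent.SylOrb

open MulAction Set
open scoped Pointwise

/-- the Sylow subgroups fixing `y` -/
def sg (G : Type*) [Group G] (p : ℕ) {Y : Type*} [MulAction G Y] (y : Y) : Set (Sylow p G) :=
  {P | ∀ g ∈ (P : Subgroup G), g • y = y}

variable {G : Type*} [Group G] {p : ℕ} {Y Z : Type*} [MulAction G Y] [MulAction G Z]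

local notation "σ" => sg G p

/-- the subgroup generated by a set of Sylow subgroups -/
def gen (s : Set (Sylow p G)) : Subgroup G := ⨆ P ∈ s, (P : Subgroup G)

/-- closed sets of Sylow subgroups -/
def Cl (s : Set (Sylow p G)) : Prop := ∀ P : Sylow p G, (P : Subgroup G) ≤ gen s → P ∈ s

/-- orbit of a subgroup -/
def orb (L : Subgroup G) (x : Y) : Set Y := {y | ∃ g ∈ L, g • x = y}

/-- fixed points of `P` in `X` -/
def fx (P : Sylow p G) (X : Set Y) : Set Y := {y | y ∈ X ∧ P ∈ σ y}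

/-- invariant sets -/
def Inv (L : Subgroup G) (X : Set Y) : Prop := ∀ g ∈ L, ∀ y ∈ X, g • y ∈ X

theorem mem_smul_sylow {g h : G} {P : Sylow p G} :
    h ∈ ((g • P : Sylow p G) : Subgroup G) ↔ g⁻¹ * h * g ∈ (P : Subgroup G) := by
  rw [Sylow.coe_subgroup_smul, Subgroup.mem_pointwise_smul_iff_inv_smul_mem]
  simp

theorem smul_mem_sg {g : G} {P : Sylow p G} {y : Y} : g • P ∈ σ (g • y) ↔ P ∈ σ y := by
  constructor
  · intro h k hk
    have := h (g * k * g⁻¹) (mem_smul_sylow.2 (by simpa [mul_assoc] using hk))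
    rw [mul_smul, inv_smul_smul, mul_smul] at this
    exact smul_left_cancel g this
  · intro h k hk
    have := h _ (mem_smul_sylow.1 hk)
    rw [mul_smul, mul_smul, inv_smul_eq_iff] at this
    exact this

theorem sg_smul (g : G) (y : Y) : σ (g • y) = g • σ y := by
  ext P
  rw [mem_smul_set_iff_inv_smul_mem, ← smul_mem_sg (g := g) (P := g⁻¹ • P), smul_inv_smul]

theorem mem_sg_smul {g : G} {P : Sylow p G} {y : Y} : P ∈ σ (g • y) ↔ g⁻¹ • P ∈ σ y := by
  rw [sg_smul, mem_smul_set_iff_inv_smul_mem]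

theorem le_gen {s : Set (Sylow p G)} {P : Sylow p G} (h : P ∈ s) : (P : Subgroup G) ≤ gen s :=
  le_iSup₂ (f := fun (P : Sylow p G) (_ : P ∈ s) => (P : Subgroup G)) P h

theorem gen_le {s : Set (Sylow p G)} {H : Subgroup G} (h : ∀ P ∈ s, (P : Subgroup G) ≤ H) :
    gen s ≤ H := iSup₂_le h

theorem gen_mono {s t : Set (Sylow p G)} (h : s ⊆ t) : gen s ≤ gen t :=
  gen_le fun _ hP => le_gen (h hP)

theorem smul_of_gen {s : Set (Sylow p G)} {y : Y} (h : s ⊆ σ y) {g : G} (hg : g ∈ gen s) :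
    g • y = y :=
  (gen_le (H := stabilizer G y) fun _ hP k hk => h hP k hk) hg

theorem cl_sg (y : Y) : Cl (σ y) := fun _ hP _ hg => smul_of_gen subset_rfl (hP hg)

theorem Cl.inter {s t : Set (Sylow p G)} (hs : Cl s) (ht : Cl t) : Cl (s ∩ t) := fun P hP =>
  ⟨hs P (hP.trans (gen_mono inter_subset_left)), ht P (hP.trans (gen_mono inter_subset_right))⟩

theorem cl_univ : Cl (univ : Set (Sylow p G)) := fun _ _ => trivial

theorem mem_gen_smul {s : Set (Sylow p G)} {g h : G} (hh : h ∈ gen s) :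
    g * h * g⁻¹ ∈ gen (g • s) := by
  have : gen s ≤ (gen (g • s)).comap (MulAut.conj g).toMonoidHom := gen_le fun P hP k hk => by
    refine le_gen (smul_mem_smul_set (a := g) hP) (mem_smul_sylow.2 ?_)
    simpa [mul_assoc] using hk
  exact this hh

theorem mem_gen_smul' {s : Set (Sylow p G)} {g h : G} (hh : h ∈ gen (g • s)) :
    g⁻¹ * h * g ∈ gen s := by
  simpa using mem_gen_smul (g := g⁻¹) hh

theorem Cl.smul {s : Set (Sylow p G)} (hs : Cl s) (g : G) : Cl (g • s) := fun P hP => by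
  rw [mem_smul_set_iff_inv_smul_mem]
  refine hs _ fun k hk => ?_
  have := mem_gen_smul' (hP (mem_smul_sylow.1 hk))
  simpa [mul_assoc] using this

theorem Cl.smul_mem {s : Set (Sylow p G)} (hs : Cl s) {g : G} (hg : g ∈ gen s) {P : Sylow p G}
    (hP : P ∈ s) : g • P ∈ s := hs _ fun k hk => by
  have h1 := le_gen hP (mem_smul_sylow.1 hk)
  have : k = g * (g⁻¹ * k * g) * g⁻¹ := by group
  rw [this]
  exact mul_mem (mul_mem hg h1) (inv_mem hg)

theorem Cl.smul_eq {s : Set (Sylow p G)} (hs : Cl s) {g : G} (hg : g ∈ gen s) : g • s = s := by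
  ext P
  rw [mem_smul_set_iff_inv_smul_mem]
  refine ⟨fun h => ?_, hs.smul_mem (inv_mem hg)⟩
  simpa using hs.smul_mem hg h

theorem mem_orb_self (L : Subgroup G) (x : Y) : x ∈ orb L x := ⟨1, one_mem _, one_smul _ _⟩

theorem inv_orb (L : Subgroup G) (x : Y) : Inv L (orb L x) := by
  rintro g hg _ ⟨h, hh, rfl⟩
  exact ⟨g * h, mul_mem hg hh, mul_smul _ _ _⟩

theorem Inv.mono {L K : Subgroup G} {X : Set Y} (h : Inv L X) (hK : K ≤ L) : Inv K X :=
  fun g hg => h g (hK hg)

theorem Inv.orb_subset {L : Subgroup G} {X : Set Y} (h : Inv L X) {x : Y} (hx : x ∈ X) :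
    orb L x ⊆ X := by
  rintro _ ⟨g, hg, rfl⟩
  exact h g hg x hx

theorem Inv.smul_iff {L : Subgroup G} {X : Set Y} (h : Inv L X) {g : G} (hg : g ∈ L) {x : Y} :
    g • x ∈ X ↔ x ∈ X :=
  ⟨fun hx => by simpa using h _ (inv_mem hg) _ hx, h g hg x⟩

theorem Inv.diff {L : Subgroup G} {X X' : Set Y} (h : Inv L X) (h' : Inv L X') :
    Inv L (X \ X') := fun g hg y hy => ⟨h g hg y hy.1, fun e => hy.2 ((h'.smul_iff hg).1 e)⟩

theorem Inv.union {L : Subgroup G} {X X' : Set Y} (h : Inv L X) (h' : Inv L X') :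
    Inv L (X ∪ X') := fun g hg y hy => hy.imp (h g hg y) (h' g hg y)

theorem inv_singleton {L : Subgroup G} {x : Y} (h : ∀ g ∈ L, g • x = x) : Inv L {x} := by
  rintro g hg _ rfl
  exact h g hg

theorem orb_symm {L : Subgroup G} {x y : Y} (h : y ∈ orb L x) : x ∈ orb L y := by
  obtain ⟨g, hg, rfl⟩ := h
  exact ⟨g⁻¹, inv_mem hg, inv_smul_smul _ _⟩

theorem orb_trans {L : Subgroup G} {x y z : Y} (h : y ∈ orb L x) (h' : z ∈ orb L y) :
    z ∈ orb L x := (inv_orb L x).orb_subset h h'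

theorem orb_eq {L : Subgroup G} {x y : Y} (h : y ∈ orb L x) : orb L y = orb L x :=
  ((inv_orb L x).orb_subset h).antisymm ((inv_orb L y).orb_subset (orb_symm h))

theorem orb_gen_smul (s : Set (Sylow p G)) (g : G) (x : Y) :
    orb (gen (g • s)) (g • x) = g • orb (gen s) x := by
  ext y
  rw [mem_smul_set_iff_inv_smul_mem]
  constructor
  · rintro ⟨h, hh, rfl⟩
    exact ⟨_, mem_gen_smul' hh, by simp [mul_smul]⟩
  · rintro ⟨h, hh, e⟩
    refine ⟨_, mem_gen_smul (g := g) hh, ?_⟩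
    simp [mul_smul, e]

theorem fx_smul (g : G) (P : Sylow p G) (X : Set Y) : fx (g • P) (g • X) = g • fx P X := by
  ext y
  simp only [fx, mem_ofPred_eq, mem_smul_set_iff_inv_smul_mem]
  rw [← smul_mem_sg (g := g⁻¹) (P := g • P), inv_smul_smul]

theorem Inv.smul_eq {L : Subgroup G} {X : Set Y} (h : Inv L X) {g : G} (hg : g ∈ L) :
    g • X = X := by
  ext y
  rw [mem_smul_set_iff_inv_smul_mem, h.smul_iff (inv_mem hg)]

theorem ncard_smul (g : G) (X : Set Y) : (g • X).ncard = X.ncard :=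
  ncard_image_of_injective _ (MulAction.injective g)

theorem Inv.ncard_fx {L : Subgroup G} {X : Set Y} (h : Inv L X) {g : G} (hg : g ∈ L)
    (P : Sylow p G) : (fx (g • P) X).ncard = (fx P X).ncard := by
  conv_lhs => rw [← h.smul_eq hg, fx_smul, ncard_smul]

variable [Finite G] [hp : Fact p.Prime]

theorem exists_conj {L : Subgroup G} {P Q : Sylow p G} (hP : (P : Subgroup G) ≤ L)
    (hQ : (Q : Subgroup G) ≤ L) : ∃ g ∈ L, g • P = Q := by
  obtain ⟨g, hg⟩ := exists_smul_eq L (P.subtype hP) (Q.subtype hQ)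
  rw [Sylow.smul_subtype] at hg
  exact ⟨g, g.2, Sylow.subtype_injective hg⟩

/-- a `p`-element stabilising a nonempty set of Sylow subgroups lies in the group they generate -/
theorem mem_gen_of_smul {s : Set (Sylow p G)} (hs : s.Nonempty) {Q : Sylow p G} {g : G}
    (hg : g ∈ (Q : Subgroup G)) (e : g • s = s) : g ∈ gen s := by
  obtain ⟨P, hP⟩ := hs
  have hn : ∀ h ∈ stabilizer G s ⊔ gen s, ∀ k ∈ gen s, h * k * h⁻¹ ∈ gen s := by
    have : stabilizer G s ⊔ gen s ≤ Subgroup.normalizer (gen s : Set G) := by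
      refine sup_le (fun h hh => ?_) Subgroup.le_normalizer
      rw [Subgroup.mem_normalizer_iff]
      intro k
      refine ⟨fun hk => ?_, fun hk => ?_⟩
      · have := mem_gen_smul (g := h) hk
        rwa [show h • s = s from hh] at this
      · have hk' : h * k * h⁻¹ ∈ gen (h • s) := by rwa [show h • s = s from hh]
        have := mem_gen_smul' hk'
        simpa [mul_assoc] using this
    intro h hh k hk
    exact (Subgroup.mem_normalizer_iff.1 (this hh) k).1 hk
  set N := stabilizer G s ⊔ gen s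
  have hgN : g ∈ N := Subgroup.mem_sup_left e
  have hPN : (P : Subgroup G) ≤ N := (le_gen hP).trans le_sup_right
  have h1 : IsPGroup p ((Subgroup.zpowers g).subgroupOf N) :=
    (Q.isPGroup'.to_le (Subgroup.zpowers_le.2 hg)).comap_subtype
  obtain ⟨R, hR⟩ := h1.exists_le_sylow
  obtain ⟨n, hn'⟩ := exists_smul_eq N (P.subtype hPN) R
  have h2 : (⟨g, hgN⟩ : N) ∈ (R : Subgroup N) := hR (Subgroup.mem_zpowers g)
  rw [← hn', mem_smul_sylow] at h2
  have h3 := hn n n.2 _ (le_gen hP h2)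
  simpa [mul_assoc] using h3

theorem sg_line {s : Set (Sylow p G)} (hs : Cl s) (hne : s.Nonempty) : σ s = s := by
  ext P
  exact ⟨fun h => hs _ fun g hg => mem_gen_of_smul hne hg (h g hg),
    fun h g hg => hs.smul_eq (le_gen h hg)⟩

theorem card_mul_orb (L : Subgroup G) (x : Y) :
    Nat.card ↥(L ⊓ stabilizer G x) * (orb L x).ncard = Nat.card L := by
  have e : orb L x = orbit L x := by
    ext y
    exact ⟨fun ⟨g, hg, e⟩ => ⟨⟨g, hg⟩, e⟩, fun ⟨g, e⟩ => ⟨g, g.2, e⟩⟩
  have e2 : stabilizer L x = (L ⊓ stabilizer G x).subgroupOf L := by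
    ext g
    simp [Subgroup.mem_subgroupOf, mem_stabilizer_iff, Subgroup.smul_def]
  rw [e, ← index_stabilizer, e2,
    ← Nat.card_congr (Subgroup.subgroupOfEquivOfLe inf_le_left).toEquiv, Subgroup.card_mul_index]

theorem not_dvd_orb {L : Subgroup G} {P : Sylow p G} (hP : (P : Subgroup G) ≤ L) {x : Y}
    (hx : P ∈ σ x) : ¬ p ∣ (orb L x).ncard := fun h => by
  have h1 := card_mul_orb L x
  have h2 : (P : Subgroup G) ≤ L ⊓ stabilizer G x := le_inf hP hx
  have h3 := Subgroup.card_mul_index (P : Subgroup G)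
  obtain ⟨a, ha⟩ := Subgroup.card_dvd_of_le h2
  obtain ⟨b, hb⟩ := Subgroup.card_subgroup_dvd_card L
  apply P.not_dvd_index
  rw [hb, ← h1, ha, mul_assoc, mul_assoc] at h3
  rw [Nat.eq_of_mul_eq_mul_left Nat.card_pos h3]
  exact (h.mul_right _).mul_left _

theorem le_ncard_orb {Q : Subgroup G} (hQ : IsPGroup p Q) {x : Y} {g : G} (hg : g ∈ Q)
    (hx : g • x ≠ x) : p ≤ (orb Q x).ncard := by
  have h1 := card_mul_orb Q x
  obtain ⟨n, hn⟩ := hQ.exists_card_eq
  have h2 : (orb Q x).ncard ∣ p ^ n := hn ▸ Dvd.intro_left _ h1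
  obtain ⟨k, -, hk⟩ := (Nat.dvd_prime_pow hp.out).1 h2
  rw [hk]
  rcases k with _ | k
  · obtain ⟨y, hy⟩ := ncard_eq_one.1 hk
    have a1 : x ∈ ({y} : Set Y) := hy ▸ mem_orb_self Q x
    have a2 : g • x ∈ ({y} : Set Y) := hy ▸ ⟨g, hg, rfl⟩
    exact absurd (a2.trans a1.symm) hx
  · exact Nat.le_self_pow k.succ_ne_zero p

theorem le_ncard_orb' {P : Sylow p G} {x : Y} (hx : P ∉ σ x) :
    p ≤ (orb (P : Subgroup G) x).ncard := by
  simp only [sg, mem_ofPred_eq, not_forall] at hx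
  obtain ⟨g, hg, h⟩ := hx
  exact le_ncard_orb P.isPGroup' hg h

/-- double counting of Sylow subgroups and their fixed points -/
theorem nu_count [Finite Y] {s : Set (Sylow p G)} {X : Set Y} (hX : Inv (gen s) X)
    {P : Sylow p G} (hP : P ∈ s) {a : ℕ} (ha : ∀ x ∈ X, (s ∩ σ x).ncard = a) :
    X.ncard * a = s.ncard * (fx P X).ncard := by
  classical
  rw [ncard_eq_toFinset_card X, ncard_eq_toFinset_card s]
  refine Finset.card_mul_eq_card_mul (fun (x : Y) (Q : Sylow p G) => Q ∈ σ x) (fun x hx => ?_)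
    fun Q hQ => ?_
  · rw [← ha x (by simpa using hx), ← ncard_coe_finset]
    congr 1
    ext Q
    simp
  · obtain ⟨g, hg, rfl⟩ := exists_conj (le_gen hP) (le_gen (s := s) (P := Q) (by simpa using hQ))
    rw [← hX.ncard_fx hg, ← ncard_coe_finset]
    congr 1
    ext y
    simp [fx]

theorem Cl.inter_smul {s : Set (Sylow p G)} (hs : Cl s) {g : G} (hg : g ∈ gen s) (x : Y) :
    s ∩ σ (g • x) = g • (s ∩ σ x) := by
  rw [smul_set_inter, hs.smul_eq hg, sg_smul]

theorem nu_orb [Finite Y] {s : Set (Sylow p G)} (hs : Cl s) {P : Sylow p G} (hP : P ∈ s) (x : Y) :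
    (orb (gen s) x).ncard * (s ∩ σ x).ncard = s.ncard * (fx P (orb (gen s) x)).ncard := by
  refine nu_count (inv_orb _ _) hP ?_
  rintro _ ⟨g, hg, rfl⟩
  rw [hs.inter_smul hg, ncard_smul]

end Cfsg.Agent.SylOrb
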