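import Cfsg.Agent.SylOrb.TC

/-!
The defect `n - r - f` as a sum of weights of points.
-/

set_option autoImplicit false
set_option linter.unusedSectionVars false

namespace Cfsg.Agent.SylOrb

open MulAction Set
open scoped Pointwise

variable {G : Type*} [Group G] {p : ℕ} {Y Z : Type*} [MulAction G Y] [MulAction G Z]

local notation "σ" => sg G p

open Classical in
/-- weight of a point -/
noncomputable def wt (P : Sylow p G) (y : Y) : ℚ :=
  if P ∈ σ y then -1 else 1 - 1 / ((orb (P : Subgroup G) y).ncard : ℚ)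

/-- defect: points minus orbits minus fixed points -/
noncomputable def del [Finite Y] (P : Sylow p G) (X : Set Y) : ℚ :=
  ∑ y ∈ X.toFinite.toFinset, wt P y

theorem gen_singleton (P : Sylow p G) : gen {P} = (P : Subgroup G) :=
  le_antisymm (gen_le fun _ h => by rw [h]) (le_gen rfl)

theorem wt_smul (g : G) (P : Sylow p G) (y : Y) : wt (g • P) (g • y) = wt P y := by
  unfold wt
  rw [smul_mem_sg, ← gen_singleton, ← gen_singleton, ← smul_set_singleton, orb_gen_smul,
    ncard_smul]

variable [Finite G] [hp : Fact p.Prime] [Finite Y] [Finite Z]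

theorem del_smul (g : G) (P : Sylow p G) (X : Set Y) : del (g • P) (g • X) = del P X := by
  unfold del
  symm
  refine Finset.sum_bij (fun y _ => g • y) (fun y hy => ?_) (fun _ _ _ _ e => smul_left_cancel g e)
    (fun y hy => ?_) fun y _ => (wt_smul g P y).symm
  · simpa using hy
  · obtain ⟨z, hz, rfl⟩ : y ∈ g • X := by simpa using hy
    exact ⟨z, by simpa using hz, rfl⟩

theorem Inv.del_smul {L : Subgroup G} {X : Set Y} (h : Inv L X) {g : G} (hg : g ∈ L)
    (P : Sylow p G) : del (g • P) X = del P X := by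
  conv_lhs => rw [← h.smul_eq hg, SylOrb.del_smul]

theorem del_union (P : Sylow p G) {X X' : Set Y} (h : Disjoint X X') :
    del P (X ∪ X') = del P X + del P X' := by
  classical
  unfold del
  rw [← Finset.sum_union (by simpa using h)]
  congr 1
  ext y
  simp

theorem del_sdiff (P : Sylow p G) {X X' : Set Y} (h : X' ⊆ X) :
    del P X = del P (X \ X') + del P X' := by
  rw [← del_union P disjoint_sdiff_left, sdiff_union_of_subset h]

theorem del_of_fixed {P : Sylow p G} {X : Set Y} (h : ∀ x ∈ X, P ∈ σ x) :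
    del P X = -(X.ncard : ℚ) := by
  unfold del
  rw [Finset.sum_congr rfl (g := fun _ => -1) fun x hx => by simp [wt, h x (by simpa using hx)],
    ncard_eq_toFinset_card X]
  simp

theorem le_wt {P : Sylow p G} {y : Y} (h : P ∉ σ y) : 1 - 1 / (p : ℚ) ≤ wt P y := by
  have h1 : (p : ℚ) ≤ (orb (P : Subgroup G) y).ncard := by exact_mod_cast le_ncard_orb' h
  have h2 : (0 : ℚ) < p := by exact_mod_cast hp.out.pos
  simp only [wt, if_neg h]
  gcongr

theorem neg_one_le_wt (P : Sylow p G) (y : Y) : -1 ≤ wt P y := by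
  by_cases h : P ∈ σ y
  · simp [wt, h]
  · have h2 : (1 : ℚ) ≤ p := by exact_mod_cast hp.out.pos
    have := le_wt h
    have h3 : 1 / (p : ℚ) ≤ 1 := by rw [div_le_one (by positivity)]; exact h2
    linarith

theorem del_lower (P : Sylow p G) (X : Set Y) :
    (p - 1 : ℚ) * X.ncard - (2 * p - 1) * (fx P X).ncard ≤ p * del P X := by
  have h0 : (0 : ℚ) < p := by exact_mod_cast hp.out.pos
  have h1 := ncard_sdiff_add_ncard_of_subset (fx_subset P X)
  have h2 : ((X \ fx P X).ncard : ℚ) * (1 - 1 / (p : ℚ)) ≤ del P (X \ fx P X) := by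
    unfold del
    rw [ncard_eq_toFinset_card (X \ fx P X), ← nsmul_eq_mul]
    refine Finset.card_nsmul_le_sum _ _ _ fun x hx => le_wt fun e => ?_
    rw [Finite.mem_toFinset] at hx
    exact hx.2 ⟨hx.1, e⟩
  rw [del_sdiff P (fx_subset P X), del_of_fixed (X := fx P X) fun _ h => h.2, ← h1]
  have h3 := mul_le_mul_of_nonneg_left h2 h0.le
  have h4 : (p : ℚ) * (((X \ fx P X).ncard : ℚ) * (1 - 1 / (p : ℚ))) =
      (p - 1) * (X \ fx P X).ncard := by field_simp
  push_cast
  linarith

theorem del_upper {P : Sylow p G} {X : Set Y} (hX : Inv (P : Subgroup G) X)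
    (h : X.ncard = p + (fx P X).ncard) : del P X ≤ p - 1 - (fx P X).ncard := by
  have h0 : (0 : ℚ) < p := by exact_mod_cast hp.out.pos
  have h1 := ncard_sdiff_add_ncard_of_subset (fx_subset P X)
  have h1' : (X \ fx P X).ncard = p := by omega
  have h2 : del P (X \ fx P X) ≤ ((X \ fx P X).ncard : ℚ) * (1 - 1 / (p : ℚ)) := by
    unfold del
    rw [ncard_eq_toFinset_card (X \ fx P X), ← nsmul_eq_mul]
    refine Finset.sum_le_card_nsmul _ _ _ fun x hx => ?_
    rw [Finite.mem_toFinset] at hx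
    have hx' : P ∉ σ x := fun e => hx.2 ⟨hx.1, e⟩
    have a1 : orb (P : Subgroup G) x ⊆ X \ fx P X := by
      rintro _ ⟨g, hg, rfl⟩
      exact ⟨hX g hg x hx.1, fun e => hx' ((mem_sg_smul_self hg).1 e.2)⟩
    have a2 : ((orb (P : Subgroup G) x).ncard : ℚ) = p := by
      exact_mod_cast le_antisymm ((ncard_le_ncard a1).trans_eq h1') (le_ncard_orb' hx')
    simp [wt, hx', a2]
  rw [del_sdiff P (fx_subset P X), del_of_fixed (X := fx P X) fun _ h => h.2]
  rw [h1'] at h2
  have h4 : (p : ℚ) * (1 - 1 / (p : ℚ)) = p - 1 := by field_simp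
  linarith

theorem del_nonneg {L : Subgroup G} (P : Sylow p G) (n : ℕ) : ∀ X : Set Y, X.ncard = n →
    Inv L X → (∀ x ∈ X, 0 ≤ del P (orb L x)) → 0 ≤ del P X := by
  induction n using Nat.strong_induction_on with
  | _ n ih =>
  intro X hn hX h
  rcases X.eq_empty_or_nonempty with rfl | ⟨x, hx⟩
  · simp [del]
  · rw [del_sdiff P (hX.orb_subset hx)]
    refine add_nonneg (ih _ ?_ _ rfl (hX.diff (inv_orb L x)) fun y hy => h y hy.1) (h x hx)
    rw [← hn]
    exact ncard_lt_ncard ⟨sdiff_subset, fun e => (e hx).2 (mem_orb_self L x)⟩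

theorem del_mono {L : Subgroup G} (P : Sylow p G) {X X' : Set Y} (hX : Inv L X) (hX' : Inv L X')
    (e : X' ⊆ X) (h : ∀ x ∈ X, 0 ≤ del P (orb L x)) : del P X' ≤ del P X := by
  rw [del_sdiff P e]
  exact le_add_of_nonneg_left (del_nonneg P _ _ rfl (hX.diff hX') fun y hy => h y hy.1)

theorem sum_smul (L : Subgroup G) (x : Y) (F : Y → ℚ) :
    ∑ g ∈ (L : Set G).toFinite.toFinset, F (g • x) =
      Nat.card ↥(L ⊓ stabilizer G x) * ∑ y ∈ (orb L x).toFinite.toFinset, F y := by
  classical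
  rw [← Finset.sum_fiberwise_of_maps_to (t := (orb L x).toFinite.toFinset) (g := fun g => g • x)
    (fun g hg => by simpa using ⟨g, by simpa using hg, rfl⟩), Finset.mul_sum]
  refine Finset.sum_congr rfl fun y hy => ?_
  obtain ⟨k, hk, rfl⟩ : y ∈ orb L x := by simpa using hy
  rw [Finset.sum_congr rfl (g := fun _ => F (k • x)) fun g hg => by
    rw [(Finset.mem_filter.1 hg).2], Finset.sum_const, nsmul_eq_mul]
  congr 2
  rw [← SetLike.coe_sort_coe, Nat.card_coe_set_eq, ← ncard_coe_finset,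
    ← ncard_smul k ((L ⊓ stabilizer G x : Subgroup G) : Set G)]
  congr 1
  ext g
  rw [mem_smul_set_iff_inv_smul_mem]
  simp only [Finset.coe_filter, Finite.mem_toFinset, SetLike.mem_coe, mem_ofPred_eq, smul_eq_mul,
    Subgroup.mem_inf, mem_stabilizer_iff, mul_smul, inv_smul_eq_iff]
  exact and_congr_left fun _ => (L.mul_mem_cancel_left (inv_mem hk)).symm

theorem fix_of_le {L : Subgroup G} {x : Y} {y : Z} (h : L ⊓ stabilizer G x ≤ stabilizer G y)
    {g k : G} (hg : g ∈ L) (hk : k ∈ L) (e : k • g • x = g • x) : k • g • y = g • y := by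
  have : g⁻¹ * k * g ∈ stabilizer G y := h (Subgroup.mem_inf.2
    ⟨mul_mem (mul_mem (inv_mem hg) hk) hg, by
      rw [mem_stabilizer_iff, mul_smul, mul_smul, e, inv_smul_smul]⟩)
  rwa [mem_stabilizer_iff, mul_smul, mul_smul, inv_smul_eq_iff] at this

theorem ncard_orb_le {L : Subgroup G} {x : Y} {y : Z} (h : L ⊓ stabilizer G x ≤ stabilizer G y) :
    (orb L y).ncard ≤ (orb L x).ncard := by
  have h1 := card_mul_orb L x
  have h2 := card_mul_orb L y
  have h3 : Nat.card ↥(L ⊓ stabilizer G x) ≤ Nat.card ↥(L ⊓ stabilizer G y) :=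
    Subgroup.card_le_of_le (le_inf inf_le_left h)
  have h4 : 0 < Nat.card ↥(L ⊓ stabilizer G y) := Nat.card_pos
  refine Nat.le_of_mul_le_mul_left ?_ h4
  rw [h2, ← h1]
  gcongr

theorem wt_le {L : Subgroup G} {P : Sylow p G} (hP : (P : Subgroup G) ≤ L) {x : Y} {y : Z}
    (h : L ⊓ stabilizer G x ≤ stabilizer G y) {g : G} (hg : g ∈ L) :
    wt P (g • y) ≤ wt P (g • x) := by
  by_cases e : P ∈ σ (g • y)
  · simpa [wt, e] using neg_one_le_wt P (g • x)
  · have e' : P ∉ σ (g • x) := fun e' => e fun k hk => fix_of_le h hg (hP hk) (e' k hk)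
    have h1 : (orb (P : Subgroup G) (g • y)).ncard ≤ (orb (P : Subgroup G) (g • x)).ncard :=
      ncard_orb_le fun k hk => fix_of_le h hg (hP hk.1) hk.2
    have h2 := hp.out.pos.trans_le (le_ncard_orb' e)
    simp only [wt, if_neg e, if_neg e']
    gcongr

theorem del_quot {L : Subgroup G} {P : Sylow p G} (hP : (P : Subgroup G) ≤ L) {x : Y} {y : Z}
    (h : L ⊓ stabilizer G x ≤ stabilizer G y) :
    Nat.card ↥(L ⊓ stabilizer G y) * del P (orb L y) ≤
      Nat.card ↥(L ⊓ stabilizer G x) * del P (orb L x) := by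
  unfold del
  rw [← sum_smul, ← sum_smul]
  exact Finset.sum_le_sum fun g hg => wt_le hP h (by simpa using hg)

theorem del_quot' {L : Subgroup G} {P : Sylow p G} (hP : (P : Subgroup G) ≤ L) {x : Y} {y : Z}
    (h : L ⊓ stabilizer G x ≤ stabilizer G y) {k : G} (hk : k ∈ L) (k1 : P ∈ σ (k • y))
    (k2 : P ∉ σ (k • x)) :
    Nat.card ↥(L ⊓ stabilizer G y) * del P (orb L y) +
      Nat.card ↥(L ⊓ stabilizer G x) * (2 * p - 1 : ℚ) ≤
      Nat.card ↥(L ⊓ stabilizer G x) * del P (orb L x) := by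
  classical
  have h0 : (0 : ℚ) < p := by exact_mod_cast hp.out.pos
  have h0' : (1 : ℚ) ≤ p := by exact_mod_cast hp.out.pos
  set O := orb (P : Subgroup G) (k • x)
  have hO : O ⊆ orb L x := ((inv_orb L x).mono hP).orb_subset ⟨k, hk, rfl⟩
  have h1 : (2 * p - 1 : ℚ) ≤
      ∑ z ∈ (orb L x).toFinite.toFinset, if z ∈ O then (2 - 1 / p : ℚ) else 0 := by
    rw [← Finset.sum_filter, Finset.sum_const, nsmul_eq_mul, ← ncard_coe_finset]
    have : (((orb L x).toFinite.toFinset.filter (· ∈ O) : Finset Y) : Set Y) = O := by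
      ext z
      simpa using fun e => hO e
    rw [this]
    have h2 : (p : ℚ) ≤ O.ncard := by exact_mod_cast le_ncard_orb' k2
    have h3 : 1 / (p : ℚ) ≤ 1 := by rw [div_le_one h0]; exact h0'
    calc (2 * p - 1 : ℚ) = p * (2 - 1 / p) := by field_simp
      _ ≤ _ := by gcongr; linarith
  refine (add_le_add_right (mul_le_mul_of_nonneg_left h1 (Nat.cast_nonneg _)) _).trans ?_
  unfold del
  rw [← sum_smul, ← sum_smul, ← sum_smul, ← Finset.sum_add_distrib]
  refine Finset.sum_le_sum fun g hg => ?_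
  have hg' : g ∈ L := by simpa using hg
  split_ifs with e
  · obtain ⟨u, hu, e⟩ := e
    have e1 : P ∉ σ (g • x) := by rwa [← e, mem_sg_smul_self hu]
    have e2 : g • y = k • y := by
      have := fix_of_le h hk (mul_mem (mul_mem hk (inv_mem hg')) (hP hu))
        (by rw [mul_smul, mul_smul, e, inv_smul_smul])
      rw [mul_smul, mul_smul, k1 u hu] at this
      rw [eq_comm, ← inv_smul_eq_iff, smul_left_cancel k this]
    have := le_wt e1
    rw [e2, wt, if_pos k1]
    linarith
  · simpa using wt_le hP h hg'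

end Cfsg.Agent.SylOrb
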