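import Cfsg.Agent.SylOrb.Orb

/-!
A primitive action of small defect: the two kinds of pairs of points.
-/

set_option autoImplicit false
set_option linter.unusedSectionVars false

namespace Cfsg.Agent.SylOrb

open MulAction Set
open scoped Pointwise

universe u

/-- the hypotheses on a primitive action of small defect -/
structure Hyp (G : Type u) [Group G] (p : ℕ) (Ω : Type*) [MulAction G Ω] [Finite Ω] : Prop where
  trans : ∀ x y : Ω, ∃ g : G, g • x = y
  prim : ∀ x : Ω, ⊤ ⊓ stabilizer G x ⋖ ⊤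
  ne : ∀ x : Ω, (sg G p x).Nonempty
  move : ∀ P : Sylow p G, ∃ x : Ω, P ∉ sg G p x
  odd : p ≠ 2
  ih : ∀ x : Ω, SV G p ({x}ᶜ : Set Ω).ncard
  small : ∀ x : Ω, ∀ P ∈ sg G p x, del P ({x}ᶜ : Set Ω) < 2 * p - 2

variable {G : Type u} [Group G] {p : ℕ} {Y Z Ω : Type*} [MulAction G Y] [MulAction G Z]
  [MulAction G Ω] [Finite G] [hp : Fact p.Prime] [Finite Y] [Finite Z] [Finite Ω]

local notation "σ" => sg G p

theorem lns_eq_orb {s : Set (Sylow p G)} (hs : Cl s) (x : Y) :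
    lns s x = orb (gen s) (s ∩ σ x) := by
  ext t
  exact ⟨fun ⟨_, ⟨g, hg, rfl⟩, e⟩ => ⟨g, hg, (hs.inter_smul hg x).symm.trans e⟩,
    fun ⟨g, hg, e⟩ => ⟨_, ⟨g, hg, rfl⟩, (hs.inter_smul hg x).trans e⟩⟩

theorem self_mem_lns (s : Set (Sylow p G)) (x : Y) : s ∩ σ x ∈ lns s x :=
  ⟨x, mem_orb_self _ _, rfl⟩

theorem lns_eq_of_mem {s : Set (Sylow p G)} (hs : Cl s) {x y : Y} (h : s ∩ σ y ∈ lns s x) :
    lns s y = lns s x := by
  rw [lns_eq_orb hs] at h ⊢
  rw [orb_eq h, lns_eq_orb hs]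

theorem lns_smul (s : Set (Sylow p G)) (g : G) (x : Y) : lns (g • s) (g • x) = g • lns s x := by
  unfold lns
  rw [orb_gen_smul, ← image_smul (t := orb (gen s) x), ← image_smul (t := _ '' _), image_image,
    image_image]
  simp only [smul_set_inter, sg_smul]

theorem cl_of_mem_lns {s t : Set (Sylow p G)} (hs : Cl s) {x : Y} (h : t ∈ lns s x) : Cl t := by
  obtain ⟨z, -, rfl⟩ := h
  exact hs.inter (cl_sg z)

theorem subset_of_mem_lns {s t : Set (Sylow p G)} {x : Y} (h : t ∈ lns s x) : t ⊆ s := by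
  obtain ⟨z, -, rfl⟩ := h
  exact inter_subset_left

theorem ncard_of_mem_lns {s t : Set (Sylow p G)} (hs : Cl s) {x : Y} (h : t ∈ lns s x) :
    t.ncard = (s ∩ σ x).ncard := by
  rw [lns_eq_orb hs] at h
  obtain ⟨g, -, rfl⟩ := h
  exact ncard_smul g _

variable (G p) in
/-- pairs of cyclic type -/
def CP (α β : Ω) (j : ℕ) : Prop := 1 ≤ j ∧ TC (σ α) (lns (σ α) β) j

variable (G p) in
/-- exceptional pairs -/
def EP (α β : Ω) : Prop := β ≠ α ∧ ∀ j, ¬ CP G p α β j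

local notation "CP" => SylOrb.CP G p
local notation "EP" => SylOrb.EP G p

variable {α β γ ε : Ω} {j : ℕ}

theorem CP.smul (h : CP α β j) (g : G) : CP (g • α) (g • β) j :=
  ⟨h.1, by rw [sg_smul, lns_smul]; exact h.2.smul g⟩

theorem EP.smul (h : EP α β) (g : G) : EP (g • α) (g • β) :=
  ⟨fun e => h.1 (smul_left_cancel g e), fun j e => h.2 j (by simpa using e.smul g⁻¹)⟩

theorem CP.of_mem (h : CP α β j) (e : σ α ∩ σ γ ∈ lns (σ α) β) : CP α γ j :=
  ⟨h.1, by rw [lns_eq_of_mem (cl_sg α) e]; exact h.2⟩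

theorem CP.line_ne (h : CP α β j) {t : Set (Sylow p G)} (ht : t ∈ lns (σ α) β) : t.Nonempty := by
  rcases t.eq_empty_or_nonempty with rfl | e
  · exact absurd (fun _ _ _ _ => smul_set_empty) (h.2.fpf _ ht)
  · exact e

theorem CP.sg_line (h : CP α β j) {t : Set (Sylow p G)} (ht : t ∈ lns (σ α) β) : σ t = t :=
  SylOrb.sg_line (cl_of_mem_lns (cl_sg α) ht) (h.line_ne ht)

theorem CP.inter_sg (h : CP α β j) {t : Set (Sylow p G)} (ht : t ∈ lns (σ α) β) :
    σ α ∩ σ t = t := by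
  rw [h.sg_line ht, inter_eq_right.2 (subset_of_mem_lns ht)]

theorem CP.col (h : CP α β j) : (σ α ∩ σ β).Nonempty := h.line_ne (self_mem_lns _ _)

theorem CP.ne (h : CP α β j) : β ≠ α := by
  rintro rfl
  refine h.2.fpf _ (self_mem_lns _ _) ?_
  rw [h.sg_line (self_mem_lns _ _), inter_self]

theorem CP.step (h : CP α β j) {t : Set (Sylow p G)} (ht : t ∈ lns (σ α) β) :
    TC t (lns (σ α) β \ {t}) (j - 1) := by
  have := h.2.step' h.1 ht
  rwa [h.inter_sg ht] at this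

theorem CP.nu (h : CP α β j) : (p + j) * (σ α ∩ σ β).ncard = (σ α).ncard * j := by
  have := h.2.nu (self_mem_lns _ _)
  rwa [h.inter_sg (self_mem_lns _ _)] at this

variable (G p) in
theorem cp_or_ep (h : β ≠ α) : (∃ j, CP α β j) ∨ EP α β := by
  by_cases e : ∃ j, CP α β j
  · exact Or.inl e
  · exact Or.inr ⟨h, not_exists.1 e⟩

theorem smul_fix {g : G} (hg : g ∈ gen (σ α)) : g • α = α := smul_of_gen subset_rfl hg

theorem EP.of_orb (h : EP α β) (e : γ ∈ orb (gen (σ α)) β) : EP α γ := by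
  obtain ⟨g, hg, rfl⟩ := e
  have := h.smul g
  rwa [smul_fix hg] at this

theorem CP.of_orb (h : CP α β j) (e : γ ∈ orb (gen (σ α)) β) : CP α γ j := by
  obtain ⟨g, hg, rfl⟩ := e
  have := h.smul g
  rwa [smul_fix hg] at this

theorem inv_compl (α : Ω) : Inv (gen (σ α)) ({α}ᶜ : Set Ω) := fun g hg _ hy e =>
  hy (smul_left_cancel g (e.trans (smul_fix hg).symm))

theorem two_le_choose {m k : ℕ} (h2 : 2 ≤ k) (hk : 2 * k ≤ m) : m.choose 2 ≤ m.choose k := by
  induction k, h2 using Nat.le_induction with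
  | base => rfl
  | succ k h ih => exact (ih (by omega)).trans (Nat.choose_le_succ_of_lt_half_left (by omega))

theorem choose_le_ncard {O : Set Y} {k : ℕ} {T : Set (Set Y)}
    (h : ∀ B ⊆ O, B.ncard = k → B ∈ T) : O.ncard.choose k ≤ T.ncard := by
  rw [ncard_eq_toFinset_card O, ← Finset.card_powersetCard, ← ncard_coe_finset]
  refine ncard_le_ncard_of_injOn (fun B => (B : Set Y)) (fun B hB => ?_)
    fun _ _ _ _ e => Finset.coe_injective e
  rw [Finset.mem_coe, Finset.mem_powersetCard] at hB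
  exact h _ (fun x hx => by simpa using hB.1 hx) (by rw [ncard_coe_finset, hB.2])

theorem pairs_arith {p j n f d : ℚ} (hj : 2 ≤ j) (hp : j + 1 ≤ p)
    (h1 : (p + j) * (p + j - 1) ≤ 2 * n) (h2 : f * ((p + j) * (p + j - 1)) ≤ n * (j * (j - 1)))
    (h3 : (p - 1) * n - (2 * p - 1) * f ≤ p * d) : 2 * p - 2 ≤ d := by
  have hM : 0 < (p + j) * (p + j - 1) := mul_pos (by linarith) (by linarith)
  set M := (p + j) * (p + j - 1) with hM'
  set K := (p - 1) * (p + 2 * j - 1) - j * (j - 1) with hK'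
  have hK : 4 * p - 4 ≤ K := by nlinarith [sq_nonneg (p - 2)]
  have e : (p - 1) * M - (2 * p - 1) * (j * (j - 1)) = p * K := by rw [hM', hK']; ring
  have a1 : p * (n * K) ≤ p * (d * M) := by
    have := mul_le_mul_of_nonneg_right h3 hM.le
    have b := mul_le_mul_of_nonneg_left h2 (show 0 ≤ 2 * p - 1 by linarith)
    have c : p * (n * K) = n * ((p - 1) * M - (2 * p - 1) * (j * (j - 1))) := by rw [e]; ring
    nlinarith
  have a2 := le_of_mul_le_mul_left a1 (by linarith)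
  have a3 : M * (2 * p - 2) ≤ M * d := by nlinarith
  exact le_of_mul_le_mul_left a3 hM

namespace Hyp

variable (H : Hyp G p Ω)
include H

theorem three_le : 3 ≤ p := by
  have := hp.out.two_le
  have := H.odd
  omega

theorem fix1 (h : σ α ⊆ σ β) : β = α := by
  obtain ⟨g, rfl⟩ := H.trans α β
  have e : g • σ α = σ α := by
    rw [← sg_smul]
    exact (eq_of_subset_of_ncard_le h (by rw [sg_smul, ncard_smul])).symm
  rcases prim_cases (H.prim α) (σ α) (fun k _ hk => by rw [← sg_smul, hk]) with h1 | h1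
  · exact h1 g trivial e
  · obtain ⟨P, hP⟩ := H.ne α
    obtain ⟨x, hx⟩ := H.move P
    obtain ⟨k, rfl⟩ := H.trans α x
    exact absurd (by rw [sg_smul, h1 k trivial]; exact hP) hx

theorem ncard_sg (α β : Ω) : (σ α).ncard = (σ β).ncard := by
  obtain ⟨g, rfl⟩ := H.trans α β
  rw [sg_smul, ncard_smul]

theorem ncard_sg_pos (α : Ω) : 0 < (σ α).ncard := (ncard_pos (toFinite _)).2 (H.ne α)

theorem bound {X : Set Ω} (hX : Inv (gen (σ α)) X) (e : α ∉ X) {P : Sylow p G} (hP : P ∈ σ α) :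
    del P X ≤ del P ({α}ᶜ : Set Ω) :=
  del_mono P (inv_compl α) hX (fun _ hx e' => e (e' ▸ hx)) fun x hx =>
    (H.ih α).nonneg (fun e => hx (H.fix1 e))
      (ncard_le_ncard ((inv_compl α).orb_subset hx)) hP

theorem bound' {X : Set Ω} (hX : Inv (gen (σ α)) X) (e : α ∉ X) {P : Sylow p G} (hP : P ∈ σ α) :
    del P X < 2 * p - 2 := (H.bound hX e hP).trans_lt (H.small α P hP)

omit H in
theorem not_mem_orb (h : β ≠ α) : α ∉ orb (gen (σ α)) β := fun e =>
  (inv_compl α).orb_subset h e rfl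

theorem ep_prim (h : EP α β) : gen (σ α) ⊓ stabilizer G β ⋖ gen (σ α) ∧
    ∀ P ∈ σ α, (p - 1 : ℚ) ≤ del P (orb (gen (σ α)) β) :=
  ((H.ih α).dich (cl_sg α) (H.ne α) (fun e => h.1 (H.fix1 e))
    (ncard_le_ncard ((inv_compl α).orb_subset h.1))
    fun _ hP => H.bound' (inv_orb _ _) (not_mem_orb h.1) hP).resolve_right
      fun ⟨j, e⟩ => h.2 j e

theorem ep_orb (h : EP α β) (h' : EP α γ) : γ ∈ orb (gen (σ α)) β := by
  by_contra e
  obtain ⟨P, hP⟩ := H.ne α
  have d : Disjoint (orb (gen (σ α)) β) (orb (gen (σ α)) γ) :=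
    disjoint_left.2 fun x h1 h2 => e (orb_trans h1 (orb_symm h2))
  have h1 := H.bound' ((inv_orb _ β).union (inv_orb _ γ))
    (fun e => e.elim (not_mem_orb h.1) (not_mem_orb h'.1)) hP
  rw [del_union P d] at h1
  linarith [(H.ep_prim h).2 P hP, (H.ep_prim h').2 P hP]

theorem eq_of_cp {i : ℕ} (h' : CP α ε i) {t : Set (Sylow p G)} (cl : Cl t) (ht : t ⊆ σ α)
    (ht' : t ≠ σ α) (e : σ α ∩ σ ε ⊆ t) : σ α ∩ σ ε = t := by
  by_contra e1
  have lt := ncard_lt_ncard (ssubset_iff_subset_ne.2 ⟨e, e1⟩)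
  have tc := h'.2.mono ht cl (h'.col.mono e) fun y hy e2 => by
    rw [h'.sg_line hy] at e2
    exact (lt.trans_le (ncard_le_ncard e2)).ne (ncard_of_mem_lns (cl_sg α) hy).symm
  refine ht' (ht.antisymm fun P hP => ?_)
  obtain ⟨y, hy, e2⟩ := h'.2.exists_fx h'.1 hP
  rw [h'.sg_line hy] at e2
  obtain ⟨g, hg, rfl⟩ := tc.trans (self_mem_lns _ _) hy
  rw [← cl.smul_eq hg]
  exact smul_set_mono e e2

theorem not_subset_of_ep (h : CP α β j) (h' : EP α ε) (hne : (σ α ∩ σ ε).Nonempty)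
    {t : Set (Sylow p G)} (ht : t ∈ lns (σ α) β) : ¬ σ α ∩ σ ε ⊆ t := fun e => by
  set O := lns (σ α) β
  let Φ : Ω → Set (Set (Sylow p G)) := fun x => {t | t ∈ O ∧ σ α ∩ σ x ⊆ t}
  have hΦ : ∀ g ∈ gen (σ α), Φ (g • ε) = g • Φ ε := fun g hg => by
    ext t
    rw [mem_smul_set_iff_inv_smul_mem]
    simp only [Φ, mem_ofPred_eq]
    rw [h.2.inv.smul_iff (inv_mem hg), (cl_sg α).inter_smul hg, subset_smul_set_iff, inv_inv]
  by_cases k1 : (Φ ε).Subsingleton
  · rcases prim_cases (H.ep_prim h').1 t (fun g hg e1 => by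
      refine k1 ?_ ⟨ht, e⟩
      conv_lhs => rw [← e1, hΦ g hg]
      exact smul_mem_smul_set ⟨ht, e⟩) with h1 | h1
    · have h2 : t ⊆ σ ε := fun P hP g hg => h1 g (le_gen (subset_of_mem_lns ht hP) hg)
        ((h.sg_line ht).ge hP g hg)
      exact h'.2 j (h.of_mem (e.antisymm (subset_inter (subset_of_mem_lns ht) h2) ▸ ht))
    · obtain ⟨y, hy, e1⟩ := h.2.nontrivial t
      obtain ⟨g, hg, rfl⟩ := h.2.trans ht hy
      exact e1 (h1 g hg)
  · obtain ⟨t1, m1, t2, m2, ne⟩ := not_subsingleton_iff.1 k1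
    obtain ⟨P, hP⟩ := hne
    have k2 : 2 ≤ (Φ ε).ncard := (one_lt_ncard (toFinite _)).2 ⟨t1, m1, t2, m2, ne⟩
    have k3 : (Φ ε).ncard ≤ j := by
      rw [← h.2.fix P hP.1]
      exact ncard_le_ncard fun t ht => ⟨ht.1, (h.sg_line ht.1).ge (ht.2 hP)⟩
    have lt := h.2.lt
    have n1 : (p + j).choose 2 ≤ (orb (gen (σ α)) ε).ncard := by
      refine (two_le_choose k2 (by omega)).trans ?_
      rw [← h.2.card]
      refine (choose_le_ncard (T := Φ '' orb (gen (σ α)) ε) fun B hB cB => ?_).trans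
        (ncard_image_le (toFinite _))
      obtain ⟨g, hg, rfl⟩ := TC.homog _ h.2 k3 (Φ ε) (fun _ h => h.1) B hB rfl cB
      exact ⟨_, ⟨g, hg, rfl⟩, hΦ g hg⟩
    have v1 := h.2.nu m1.1
    rw [h.inter_sg m1.1] at v1
    have v2 := (h.step m1.1).nu ⟨m2.1, ne.symm⟩
    rw [h.sg_line m2.1] at v2
    have v3 := nu_orb (cl_sg α) hP.1 ε
    have v4 : (σ α ∩ σ ε).ncard ≤ (t1 ∩ t2).ncard := ncard_le_ncard (subset_inter m1.2 m2.2)
    have v5 := H.ncard_sg_pos α
    obtain ⟨i, rfl⟩ : ∃ i, j = i + 1 := ⟨j - 1, by omega⟩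
    rw [Nat.add_sub_cancel] at v2
    have v6 : (fx P (orb (gen (σ α)) ε)).ncard * ((p + (i + 1)) * (p + i)) ≤
        (orb (gen (σ α)) ε).ncard * ((i + 1) * i) := by
      refine Nat.le_of_mul_le_mul_left ?_ v5
      calc _ = (orb (gen (σ α)) ε).ncard * (σ α ∩ σ ε).ncard * ((p + (i + 1)) * (p + i)) := by
            rw [v3]; ring
        _ ≤ (orb (gen (σ α)) ε).ncard * (t1 ∩ t2).ncard * ((p + (i + 1)) * (p + i)) := by gcongr
        _ = (orb (gen (σ α)) ε).ncard * ((p + (i + 1)) * ((p + i) * (t1 ∩ t2).ncard)) := by ring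
        _ = (orb (gen (σ α)) ε).ncard * ((p + (i + 1)) * t1.ncard * i) := by rw [v2]; ring
        _ = _ := by rw [v1]; ring
    refine (H.bound' (inv_orb _ ε) (not_mem_orb h'.1) hP.1).not_ge
      (pairs_arith (j := (i + 1 : ℕ)) (by exact_mod_cast k2.trans k3) (by exact_mod_cast lt) ?_ ?_
        (del_lower P _))
    · have : (((p + (i + 1)).choose 2 : ℕ) : ℚ) ≤ (orb (gen (σ α)) ε).ncard := by exact_mod_cast n1
      rw [Nat.cast_choose_two] at this
      push_cast at this ⊢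
      linarith
    · have : (((fx P (orb (gen (σ α)) ε)).ncard * ((p + (i + 1)) * (p + i)) : ℕ) : ℚ) ≤
        (((orb (gen (σ α)) ε).ncard * ((i + 1) * i) : ℕ) : ℚ) := by exact_mod_cast v6
      push_cast at this ⊢
      convert this using 2 <;> ring

theorem line_ne_sg (h : CP α β j) {t : Set (Sylow p G)} (ht : t ∈ lns (σ α) β) : t ≠ σ α :=
  fun e => h.2.fpf t ht (by rw [h.sg_line ht, e])

/-- a point collinear with `α` is on a line of the class or moves all of them -/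
theorem dich (h : CP α β j) (hε : ε ≠ α) (hne : (σ α ∩ σ ε).Nonempty) :
    σ α ∩ σ ε ∈ lns (σ α) β ∨ TC (σ α ∩ σ ε) (lns (σ α) β) j := by
  refine or_iff_not_imp_left.2 fun e => h.2.mono inter_subset_left ((cl_sg α).inter (cl_sg ε)) hne
    fun t ht e1 => ?_
  rw [h.sg_line ht] at e1
  rcases cp_or_ep G p hε with ⟨i, h'⟩ | h'
  · exact e (H.eq_of_cp h' (cl_of_mem_lns (cl_sg α) ht) (subset_of_mem_lns ht)
      (H.line_ne_sg h ht) e1 ▸ ht)
  · exact H.not_subset_of_ep h h' hne ht e1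

theorem ep_line (h : EP α ε) (hne : (σ α ∩ σ ε).Nonempty) (e : σ α ∩ σ ε ⊆ σ γ) (hγ : γ ≠ α) :
    γ = ε := by
  rcases cp_or_ep G p hγ with ⟨i, h'⟩ | h'
  · exact absurd (subset_inter inter_subset_left e) (H.not_subset_of_ep h' h hne (self_mem_lns _ _))
  · obtain ⟨g, hg, rfl⟩ := H.ep_orb h h'
    have e1 : g • (σ α ∩ σ ε) = σ α ∩ σ ε := by
      rw [← (cl_sg α).inter_smul hg]
      exact (eq_of_subset_of_ncard_le (subset_inter inter_subset_left e)
        (by rw [(cl_sg α).inter_smul hg, ncard_smul])).symm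
    rcases prim_cases (H.ep_prim h).1 (σ α ∩ σ ε)
      (fun k hk e => by rw [← (cl_sg α).inter_smul hk, e]) with h1 | h1
    · exact h1 g hg e1
    · obtain ⟨P, hP⟩ := hne
      refine absurd (H.fix1 fun Q hQ => ?_) h.1
      obtain ⟨k, hk, rfl⟩ := exists_conj (le_gen hP.1) (le_gen hQ)
      exact ((h1 k hk).le (smul_mem_smul_set hP)).2

/-- two points of a line determine it -/
theorem pls (hβ : β ≠ α) (hne : (σ α ∩ σ β).Nonempty) (e : σ α ∩ σ β ⊆ σ γ) (hγ : γ ≠ α) :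
    σ α ∩ σ γ = σ α ∩ σ β := by
  rcases cp_or_ep G p hβ with ⟨i, h'⟩ | h'
  · exact (H.eq_of_cp h' ((cl_sg α).inter (cl_sg γ)) inter_subset_left
      (fun e => hγ (H.fix1 (inter_eq_left.1 e))) (subset_inter inter_subset_left e)).symm
  · rw [H.ep_line h' hne e hγ]

end Hyp

end Cfsg.Agent.SylOrb
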