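import Cfsg.Agent.SylOrb.Geo1

/-!
Triangles, cliques and the symmetry of pairs of cyclic type.
-/

set_option autoImplicit false
set_option linter.unusedSectionVars false

namespace Cfsg.Agent.SylOrb

open MulAction Set
open scoped Pointwise

universe u

variable {G : Type u} [Group G] {p : ℕ} {Ω : Type*} [MulAction G Ω] [Finite G]
  [hp : Fact p.Prime] [Finite Ω]

local notation "σ" => sg G p
local notation "CP" => SylOrb.CP G p
local notation "EP" => SylOrb.EP G p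

variable (G p) in
/-- the points on the lines through `α` of the class of `β` -/
def cls (α β : Ω) : Set Ω := {x | x ≠ α ∧ σ α ∩ σ x ∈ lns (σ α) β}

variable (G p) in
/-- the line through `α` and `β` has two points -/
def U1 (α β : Ω) : Prop := ∀ x, x ≠ α → σ α ∩ σ β ⊆ σ x → x = β

local notation "cls" => SylOrb.cls G p
local notation "U1" => SylOrb.U1 G p

variable {α β γ ε : Ω} {i j : ℕ}

theorem CP.mem_cls (h : CP α β j) : β ∈ cls α β := ⟨h.ne, self_mem_lns _ _⟩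

theorem inv_cls (α β : Ω) : Inv (gen (σ α)) (cls α β) := fun g hg y hy =>
  ⟨inv_compl α g hg y hy.1, by
    rw [(cl_sg α).inter_smul hg, lns_eq_orb (cl_sg α)]
    exact inv_orb _ _ g hg _ ((lns_eq_orb (cl_sg α) β).le hy.2)⟩

theorem cls_eq (h : γ ∈ cls α β) : cls α γ = cls α β := by
  unfold SylOrb.cls
  rw [lns_eq_of_mem (cl_sg α) h.2]

theorem cls_smul (g : G) (α β : Ω) : cls (g • α) (g • β) = g • cls α β := by
  ext x
  obtain ⟨x, rfl⟩ := MulAction.surjective g x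
  simp only [smul_mem_smul_set_iff, SylOrb.cls, mem_ofPred_eq, sg_smul, lns_smul, ← smul_set_inter,
    ne_eq, smul_left_cancel_iff]

theorem U1.smul (h : U1 α β) (g : G) : U1 (g • α) (g • β) := fun x hx e => by
  obtain ⟨x, rfl⟩ := MulAction.surjective g x
  simp only [sg_smul, ← smul_set_inter, smul_set_subset_smul_set_iff] at e
  rw [h x (fun e => hx (congrArg _ e)) e]

theorem exists_of_mem_lns (h : β ≠ α) {t : Set (Sylow p G)} (ht : t ∈ lns (σ α) β) :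
    ∃ x ∈ cls α β, x ∈ orb (gen (σ α)) β ∧ σ α ∩ σ x = t := by
  obtain ⟨x, hx, rfl⟩ := ht
  exact ⟨x, ⟨(inv_compl α).orb_subset h hx, x, hx, rfl⟩, hx, rfl⟩

theorem U1.of_mem (h : U1 α β) (hγ : γ ∈ cls α β) : U1 α γ ∧ γ ∈ orb (gen (σ α)) β := by
  obtain ⟨_, ⟨g, hg, rfl⟩, e⟩ := hγ.2
  have h1 := h.smul g
  rw [smul_fix hg] at h1
  have := h1 γ hγ.1 (e.le.trans inter_subset_right)
  exact ⟨this ▸ h1, g, hg, this.symm⟩

theorem CP.tc_cls (h : CP α β j) (u : U1 α β) : TC (σ α) (cls α β) j := by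
  refine h.2.congr' (fun x => σ α ∩ σ x) (fun x hx y hy e => ?_) ?_ (inv_cls α β)
    fun P hP y hy => ?_
  · exact ((u.of_mem hx).1 y hy.1 (e.le.trans inter_subset_right)).symm
  · refine subset_antisymm (by rintro _ ⟨x, hx, rfl⟩; exact hx.2) fun t ht => ?_
    obtain ⟨x, hx, -, e⟩ := exists_of_mem_lns h.ne ht
    exact ⟨x, hx, e⟩
  · rw [h.sg_line hy.2]
    exact ⟨fun e => e.2, fun e => ⟨hP, e⟩⟩

theorem smul_fix₁ {g : G} (hg : g ∈ gen (σ α ∩ σ β)) : g ∈ gen (σ α) :=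
  gen_mono inter_subset_left hg

theorem smul_fix₂ {g : G} (hg : g ∈ gen (σ α ∩ σ β)) : g ∈ gen (σ β) :=
  gen_mono inter_subset_right hg

namespace Hyp

variable (H : Hyp G p Ω)
include H

theorem subset_of_two {w : Set (Sylow p G)} {O : Set (Set (Sylow p G))} (tc : TC w O j)
    (hj : 1 ≤ j) (hw : w ⊆ σ ε) {s1 s2 t1 t2 : Set (Sylow p G)} (h1 : s1 ∈ O) (h2 : s2 ∈ O)
    (h3 : t1 ∈ O) (h4 : t2 ∈ O) (e : s2 ≠ s1) (e' : t2 ≠ t1) (r : s1 ∩ s2 ⊆ σ ε) :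
    t1 ∩ t2 ⊆ σ ε := by
  obtain ⟨g, hg, rfl, rfl⟩ := tc.two_trans hj h1 h2 h3 h4 e e'
  rw [← smul_set_inter, ← smul_of_gen hw hg, sg_smul]
  exact smul_set_mono r

theorem tri (h : CP α β j) (hj : 2 ≤ j) (hγ : γ ∈ cls α β) (ne : σ α ∩ σ γ ≠ σ α ∩ σ β) :
    (σ α ∩ σ β ∩ σ γ).Nonempty ∧ U1 β γ := by
  have tc := (h.step (self_mem_lns _ _)).step' (by omega) ⟨hγ.2, ne⟩
  rw [h.sg_line hγ.2] at tc
  have r1 : σ α ∩ σ β ∩ (σ α ∩ σ γ) ⊆ σ β ∩ σ γ := fun _ h => ⟨h.1.2, h.2.2⟩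
  have col := tc.ne.mono r1
  have bg : γ ≠ β := fun e => ne (by rw [e])
  refine ⟨tc.ne.mono fun _ h => ⟨h.1, h.2.2⟩, fun ε e1 e => by_contra fun e2 => ?_⟩
  have a : ¬ σ β ∩ σ γ ⊆ σ α := fun a => by
    have a1 := H.pls bg col a h.ne.symm
    have a2 := H.pls bg.symm (by rwa [inter_comm]) (by rwa [inter_comm]) hγ.1.symm
    exact ne (by rw [inter_comm, a2, inter_comm, ← a1, inter_comm])
  have key : ∀ β γ : Ω, β ≠ α → γ ≠ β → ε ≠ β → (σ β ∩ σ γ).Nonempty → σ β ∩ σ γ ⊆ σ ε →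
      (σ α ∩ σ β).Nonempty → σ α ∩ σ ε = σ α ∩ σ β → σ β ∩ σ γ ⊆ σ α := by
    intro β γ b1 b2 b3 b4 b5 b6 b7
    rw [← H.pls b2 b4 b5 b3, H.pls b1.symm (by rwa [inter_comm])
      (by rw [inter_comm, ← b7]; exact inter_subset_right) b3]
    exact inter_subset_right
  have εα : ε ≠ α := fun e3 => a (e3 ▸ e)
  have r2 : σ α ∩ σ β ∩ (σ α ∩ σ γ) ⊆ σ α ∩ σ ε := fun _ h => ⟨h.1.1, e (r1 h)⟩
  rcases H.dich h εα (tc.ne.mono r2) with d | d
  · refine tc.fpf _ ⟨⟨d, fun e3 => a (key β γ h.ne bg e1 col e h.col e3)⟩, fun e3 => a ?_⟩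
      (by rwa [h.sg_line d])
    rw [inter_comm]
    exact key γ β hγ.1 bg.symm e2 (by rwa [inter_comm]) (by rwa [inter_comm]) (h.line_ne hγ.2) e3
  · refine εα (H.fix1 fun P hP => ?_)
    obtain ⟨y, hy, z, hz, e3, y1, z1⟩ := h.2.exists_fx_two hj hP
    rw [h.sg_line hy] at y1
    rw [h.sg_line hz] at z1
    exact H.subset_of_two d h.1 inter_subset_right (self_mem_lns _ _) hγ.2 hy hz ne e3
      (r2.trans inter_subset_right) ⟨y1, z1⟩

omit H in
variable (G p) in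
/-- cliques -/
def _root_.Cfsg.Agent.SylOrb.Clq (K : Set Ω) : Prop :=
  ∀ b ∈ K, ∃ b' j, CP b b' j ∧ K \ {b} = cls b b'

theorem clq_eq {K K' : Set Ω} (hK : Clq G p K) (hK' : Clq G p K') {b : Ω} (hb : b ∈ K)
    (hb' : b ∈ K') : K = K' := by
  by_contra ne
  obtain ⟨b1, j1, c1, e1⟩ := hK b hb
  obtain ⟨b2, j2, c2, e2⟩ := hK' b hb'
  have d : ∀ x ∈ K, x ∈ K' → x = b := fun x h1 h2 => by_contra fun e => ne (by
    rw [← sdiff_union_of_subset (singleton_subset_iff.2 hb),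
      ← sdiff_union_of_subset (singleton_subset_iff.2 hb'), e1, e2,
      ← cls_eq (e1.le ⟨h1, e⟩), cls_eq (e2.le ⟨h2, e⟩)])
  obtain ⟨P, hP⟩ := H.ne b
  obtain ⟨t1, m1, f1⟩ := c1.2.exists_fx c1.1 hP
  obtain ⟨t2, m2, f2⟩ := c2.2.exists_fx c2.1 hP
  rw [c1.sg_line m1] at f1
  rw [c2.sg_line m2] at f2
  obtain ⟨β, β1, -, rfl⟩ := exists_of_mem_lns c1.ne m1
  obtain ⟨γ, γ1, -, rfl⟩ := exists_of_mem_lns c2.ne m2
  rw [← e1] at β1
  rw [← e2] at γ1
  have γ2 : γ ∉ K := fun e => γ1.2 (d γ e γ1.1)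
  obtain ⟨β', j3, c3, e3⟩ := hK β β1.1
  obtain ⟨γ', j4, c4, e4⟩ := hK' γ γ1.1
  have bg : γ ≠ β := fun e => γ2 (e ▸ β1.1)
  rcases H.dich c3 bg ⟨P, f1.2, f2.2⟩ with h | h
  · exact γ2 (e3.ge ⟨bg, h⟩).1
  · have b1 : b ∈ cls β β' := e3.le ⟨hb, Ne.symm β1.2⟩
    obtain ⟨t, ht, e⟩ := h.nontrivial (σ β ∩ σ b)
    obtain ⟨g, hg, rfl⟩ := h.trans b1.2 ht
    have := d _ (e3.ge (inv_cls _ _ g (smul_fix₁ hg) b b1)).1
      (e4.ge (inv_cls _ _ g (smul_fix₂ hg) b (e4.le ⟨hb', Ne.symm γ1.2⟩))).1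
    exact e (by rw [← (cl_sg β).inter_smul (smul_fix₁ hg), this])

theorem clq_univ {K : Set Ω} (hK : Clq G p K) {b : Ω} (hb : b ∈ K) : K = univ := by
  have hs : ∀ g : G, Clq G p (g • K) := by
    rintro g _ ⟨c, hc, rfl⟩
    obtain ⟨c', j, c1, e⟩ := hK c hc
    refine ⟨g • c', j, c1.smul g, ?_⟩
    rw [cls_smul, ← e, smul_set_sdiff, smul_set_singleton]
  have h1 : ∀ c ∈ K, ∀ g : G, g • c = c → g • K = K := fun c hc g e =>
    H.clq_eq (hs g) hK (e ▸ smul_mem_smul_set hc) hc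
  rcases prim_cases (H.prim b) K (fun g _ => h1 b hb g) with h | h
  · obtain ⟨b', j, c1, e⟩ := hK b hb
    have := e.ge c1.mem_cls
    exact absurd (H.fix1 fun P hP g hg => h g trivial (h1 b' this.1 g (hP g hg))).symm this.2
  · refine eq_univ_of_forall fun x => ?_
    obtain ⟨g, rfl⟩ := H.trans b x
    rw [← h g trivial]
    exact smul_mem_smul_set hb

theorem cls_sdiff (h : CP α β j) (u : U1 α β) (hγ : γ ∈ cls α β \ {β}) (h' : CP β γ i)
    (e : σ β ∩ σ α ∉ lns (σ β) γ) : cls α β \ {β} = cls β γ := by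
  have tc := (h.tc_cls u).step' h.1 h.mem_cls
  have d := (H.dich h' h.ne.symm (by rw [inter_comm]; exact h.col)).resolve_left e
  have b0 : ∀ t ∈ lns (σ β) γ, ∃ x ∈ cls α β \ {β}, σ β ∩ σ x = t := fun t ht => by
    obtain ⟨g, hg, rfl⟩ := d.trans (self_mem_lns _ _) ht
    exact ⟨g • γ, tc.inv g (by rwa [inter_comm]) γ hγ, (cl_sg β).inter_smul (smul_fix₁ hg) γ⟩
  have hj : 2 ≤ j := by
    have : (lns (σ β) γ).ncard ≤ (cls α β \ {β}).ncard :=
      (ncard_le_ncard (show _ ⊆ (fun x => σ β ∩ σ x) '' (cls α β \ {β}) from b0)).trans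
        (ncard_image_le (toFinite _))
    rw [h'.2.card, tc.card] at this
    have := h'.1
    omega
  refine subset_antisymm (fun x hx => ?_) fun x hx => ?_
  · obtain ⟨g, hg, rfl⟩ := tc.trans hγ hx
    exact inv_cls β γ g (smul_fix₂ hg) γ h'.mem_cls
  · obtain ⟨y, hy, e1⟩ := b0 _ hx.2
    rwa [(H.tri h hj hy.1 fun e2 => hy.2 (u y hy.1.1 (e2.ge.trans inter_subset_right))).2 x hx.1
      (e1.le.trans inter_subset_right)]

theorem symm (h : CP α β j) : CP β α j := by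
  rcases cp_or_ep G p h.ne.symm with ⟨i, h'⟩ | h'
  · have h1 := h.nu
    have h2 := h'.nu
    rw [inter_comm, H.ncard_sg β α] at h2
    have h3 := H.ncard_sg_pos α
    have h4 : (σ α).ncard * (p * i) = (σ α).ncard * (p * j) := by
      have : (p + i) * ((σ α).ncard * j) = (p + j) * ((σ α).ncard * i) := by
        rw [← h1, ← h2]; ring
      nlinarith
    rwa [← Nat.eq_of_mul_eq_mul_left hp.out.pos (Nat.eq_of_mul_eq_mul_left h3 h4)]
  exfalso
  have key : ∀ β, CP α β j → EP β α → U1 α β ∧ ∃ γ i, CP β γ i ∧ cls α β \ {β} = cls β γ := by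
    intro β h h'
    have u : U1 α β := fun x hx e => by_contra fun e1 =>
      hx (H.ep_line h' (by rw [inter_comm]; exact h.col) (by rwa [inter_comm]) e1)
    obtain ⟨γ, γ1, γ2⟩ := (h.tc_cls u).nontrivial β
    rcases cp_or_ep G p γ2 with ⟨i, c⟩ | c
    · exact ⟨u, γ, i, c, H.cls_sdiff h u ⟨γ1, γ2⟩ c fun e => h'.2 i (c.of_mem e)⟩
    · obtain ⟨g, -, g1, g2⟩ := (h.tc_cls u).two_trans h.1 h.mem_cls γ1 γ1 h.mem_cls γ2 γ2.symm
      have c1 := c.smul g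
      obtain ⟨k, hk, rfl⟩ := H.ep_orb h' c
      have c2 := h.smul k
      rw [smul_fix hk] at c2
      rw [g1, g2] at c1
      exact absurd c2 (c1.2 j)
  have : Clq G p (cls α β) := fun b hb => by
    obtain ⟨g, hg, rfl⟩ := ((key β h h').1.of_mem hb).2
    have h1 := h'.smul g
    rw [smul_fix hg] at h1
    rw [← cls_eq hb]
    exact (key _ (h.of_mem hb.2) h1).2
  exact ((H.clq_univ this h.mem_cls).ge (mem_univ α)).1 rfl

end Hyp

end Cfsg.Agent.SylOrb
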