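import Cfsg.Agent.SylOrb.Geo2

/-!
Two points on different lines of a class with two fixed lines do not form an exceptional pair.
-/

set_option autoImplicit false
set_option linter.unusedSectionVars false

namespace Cfsg.Agent.SylOrb

open MulAction Set
open scoped Pointwise

universe u

variable {G : Type u} [Group G] {p : ℕ} {Ω : Type*} [MulAction G Ω] [Finite G]
  [hp : Fact p.Prime] [Finite Ω]

local notation "σ" => sg G p
local notation "CP" => SylOrb.CP G p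
local notation "EP" => SylOrb.EP G p
local notation "cls" => SylOrb.cls G p

variable (G p) in
/-- the configuration to be excluded -/
structure Cfg (β α γ : Ω) (i : ℕ) : Prop where
  cp : CP α β (i + 2)
  mem : γ ∈ cls α β
  ne : σ α ∩ σ γ ≠ σ α ∩ σ β
  ep : EP β γ

local notation "Cfg" => SylOrb.Cfg G p

variable {α α' β γ δ : Ω} {i : ℕ}

theorem Cfg.smul (h : Cfg β α γ i) {g : G} (hg : g ∈ gen (σ β)) : Cfg β (g • α) (g • γ) i := by
  have e := smul_fix hg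
  refine ⟨e ▸ h.cp.smul g, ?_, fun e1 => h.ne ?_, e ▸ h.ep.smul g⟩
  · conv => enter [1]; rw [← e, cls_smul]
    exact smul_mem_smul_set h.mem
  · conv_rhs at e1 => rw [← e]
    simpa only [sg_smul, ← smul_set_inter, smul_left_cancel_iff] using e1

theorem Cfg.of_orb (h : Cfg β α γ i) (e : δ ∈ orb (gen (σ β ∩ σ α)) γ) : Cfg β α δ i := by
  obtain ⟨g, hg, rfl⟩ := e
  have := h.smul (smul_fix₁ hg)
  rwa [smul_fix (smul_fix₂ hg)] at this

theorem Cfg.tcO (h : Cfg β α γ i) :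
    TC (σ β ∩ σ α ∩ σ γ) ((lns (σ α) β \ {σ α ∩ σ β}) \ {σ α ∩ σ γ}) i := by
  have tc := TC.step (j := i) (h.cp.step (self_mem_lns _ _)) ⟨h.mem.2, h.ne⟩
  rw [h.cp.sg_line h.mem.2] at tc
  convert tc using 1
  ext
  simp only [mem_inter_iff]
  tauto

theorem Cfg.le_ncard (h : Cfg β α γ i) : p + (i + 1) ≤ (orb (gen (σ β ∩ σ α)) γ).ncard := by
  have tc := h.cp.step (self_mem_lns _ _)
  refine tc.card.ge.trans ((ncard_le_ncard
    (show _ ⊆ (fun x => σ α ∩ σ x) '' orb (gen (σ β ∩ σ α)) γ from fun t ht => ?_)).trans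
    (ncard_image_le (toFinite _)))
  obtain ⟨g, hg, rfl⟩ := tc.trans ⟨h.mem.2, h.ne⟩ ht
  exact ⟨_, ⟨g, by rwa [inter_comm], rfl⟩, (cl_sg α).inter_smul (smul_fix₁ hg) γ⟩

theorem cfg_arith {p i n f d : ℚ} (hi : 0 ≤ i) (hp : i + 3 ≤ p) (h1 : (p + i + 1) ^ 2 ≤ n)
    (h2 : n * (i + 1) = f * (p + (i + 1))) (h3 : (p - 1) * n - (2 * p - 1) * f ≤ p * d) :
    2 * p - 2 ≤ d := by
  have hm : 0 < p + i + 1 := by linarith
  have a1 : p * (n * (p - i - 2)) ≤ p * (d * (p + i + 1)) := by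
    have := mul_le_mul_of_nonneg_right h3 hm.le
    have e : p * (n * (p - i - 2)) = (p - 1) * n * (p + i + 1) - (2 * p - 1) * (n * (i + 1)) := by
      ring
    rw [e, h2]
    linarith
  have a2 := le_of_mul_le_mul_left a1 (by linarith)
  have a3 : (p + i + 1) ^ 2 * (p - i - 2) ≤ n * (p - i - 2) := by gcongr; linarith
  have a4 : 2 * p - 2 ≤ (p + i + 1) * (p - i - 2) := by
    nlinarith [mul_nonneg (show 0 ≤ p - i - 3 by linarith) (show 0 ≤ p + i by linarith)]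
  have a5 : (p + i + 1) * ((p + i + 1) * (p - i - 2)) ≤ (p + i + 1) * d := by nlinarith
  exact a4.trans (le_of_mul_le_mul_left a5 hm)

namespace Hyp

variable (H : Hyp G p Ω)
include H

theorem cfg_col (h : Cfg β α γ i) : (σ β ∩ σ γ).Nonempty :=
  (H.tri h.cp (by omega) h.mem h.ne).1.mono fun _ h => ⟨h.1.2, h.2⟩

theorem cfg_tc (h : Cfg β α γ i) : TC (σ β ∩ σ γ) (lns (σ β) α) (i + 2) :=
  (H.dich (H.symm h.cp) h.ep.1 (H.cfg_col h)).resolve_left fun e =>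
    h.ep.2 _ ((H.symm h.cp).of_mem e)

theorem cfg_tcV (h : Cfg β α γ i) :
    TC (σ β ∩ σ α ∩ σ γ) (lns (σ β) α \ {σ β ∩ σ α}) (i + 1) := by
  have tc := (H.cfg_tc h).step (self_mem_lns _ _)
  rw [(H.symm h.cp).sg_line (self_mem_lns _ _)] at tc
  convert tc using 1
  ext
  simp only [mem_inter_iff]
  tauto

theorem cfg_ex (h : Cfg β α γ i) {l : Set (Sylow p G)} (hl : l ∈ lns (σ β) α) :
    ∃ α', σ β ∩ σ α' = l ∧ Cfg β α' γ i := by
  obtain ⟨k, hk, rfl⟩ := (H.cfg_tc h).trans (self_mem_lns _ _) hl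
  have := h.smul (smul_fix₁ hk)
  rw [smul_fix (smul_fix₂ hk)] at this
  exact ⟨k • α, (cl_sg β).inter_smul (smul_fix₁ hk) α, this⟩

theorem cfg_nu (h : Cfg β α γ i) {P : Sylow p G} (hP : P ∈ σ β) :
    (orb (gen (σ β)) γ).ncard * (i + 1) = (fx P (orb (gen (σ β)) γ)).ncard * (p + (i + 1)) := by
  have v1 : (p + (i + 1)) * _ = _ * (i + 1) := (h.cp.step (self_mem_lns _ _)).nu ⟨h.mem.2, h.ne⟩
  have v2 := (H.cfg_tc h).nu (self_mem_lns _ _)
  have v3 := h.cp.nu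
  have v4 := nu_orb (cl_sg β) hP γ
  have v5 := H.ncard_sg_pos β
  rw [h.cp.sg_line h.mem.2] at v1
  rw [(H.symm h.cp).sg_line (self_mem_lns _ _),
    show σ β ∩ σ γ ∩ (σ β ∩ σ α) = σ α ∩ σ β ∩ (σ α ∩ σ γ) by
      ext; simp only [mem_inter_iff]; tauto] at v2
  rw [H.ncard_sg α β] at v3
  have v6 : (σ β ∩ σ γ).ncard * (p + (i + 1)) = (σ β).ncard * (i + 1) := by
    refine Nat.eq_of_mul_eq_mul_left (show 0 < i + 2 by omega) ?_
    calc _ = (σ β ∩ σ γ).ncard * (i + 2) * (p + (i + 1)) := by ring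
      _ = (p + (i + 2)) * ((p + (i + 1)) * (σ α ∩ σ β ∩ (σ α ∩ σ γ)).ncard) := by rw [← v2]; ring
      _ = (p + (i + 2)) * (σ α ∩ σ β).ncard * (i + 1) := by rw [v1]; ring
      _ = _ := by rw [v3]; ring
  refine Nat.eq_of_mul_eq_mul_left v5 ?_
  calc _ = (orb (gen (σ β)) γ).ncard * ((σ β).ncard * (i + 1)) := by ring
    _ = (orb (gen (σ β)) γ).ncard * (σ β ∩ σ γ).ncard * (p + (i + 1)) := by rw [← v6]; ring
    _ = _ := by rw [v4]; ring

theorem claim1 (h : Cfg β α γ i) {l : Set (Sylow p G)} (hl : l ∈ lns (σ β) α \ {σ β ∩ σ α}) :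
    TC (σ β ∩ σ α ∩ σ γ ∩ l) ((lns (σ α) β \ {σ α ∩ σ β}) \ {σ α ∩ σ γ}) i := by
  rw [← (H.symm h.cp).sg_line hl.1]
  exact h.tcO.mono inter_subset_left (h.tcO.cl.inter (cl_sg l))
    ((H.cfg_tcV h).exists_fix (by omega) hl) fun y hy => (H.cfg_tcV h).not_subset h.tcO hl hy

theorem claim2 (h : Cfg β α γ i) (h' : Cfg β α' γ i) (m : σ β ∩ σ α' ∈ lns (σ β) α)
    (ne : σ β ∩ σ α' ≠ σ β ∩ σ α) (e : σ β ∩ σ α ∩ σ γ ⊆ σ δ)
    (hδ : δ ∈ orb (gen (σ β ∩ σ α')) γ) : δ = γ := by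
  have c := h'.of_orb hδ
  have eq := lns_eq_of_mem (cl_sg β) m
  have e1 : σ α' ∩ σ δ = σ α' ∩ σ γ := by
    by_contra e1
    refine (H.claim1 h' (l := σ β ∩ σ α) ⟨eq ▸ self_mem_lns _ _, ne.symm⟩).fpf _
      ⟨⟨c.mem.2, c.ne⟩, e1⟩ ?_
    rw [h'.cp.sg_line c.mem.2]
    exact fun P hP => ⟨hP.1.1.2, e ⟨hP.2, hP.1.2⟩⟩
  have s1 : σ β ∩ σ α ∩ σ γ ⊆ σ β ∩ σ γ ∩ σ δ := fun P hP => ⟨⟨hP.1.1, hP.2⟩, e hP⟩
  have s2 : σ β ∩ σ α' ∩ σ γ ⊆ σ β ∩ σ γ ∩ σ δ := fun P hP =>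
    ⟨⟨hP.1.1, hP.2⟩, (e1.ge ⟨hP.1.2, hP.2⟩).2⟩
  have tc := (H.cfg_tc h).mono inter_subset_left ((H.cfg_tc h).cl.inter (cl_sg δ))
    ((H.cfg_tcV h).ne.mono s1) fun y hy e2 => by
      by_cases e3 : y = σ β ∩ σ α
      · exact (H.cfg_tcV h').fpf y ⟨eq ▸ hy, fun e4 => ne (e4.symm.trans e3)⟩ (s2.trans e2)
      · exact (H.cfg_tcV h).fpf y ⟨hy, e3⟩ (s1.trans e2)
  refine H.ep_line h.ep (H.cfg_col h) (fun P hP => ?_) c.ep.1
  obtain ⟨y, hy, e2⟩ := (H.cfg_tc h).exists_fx (by omega) hP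
  rw [(H.symm h.cp).sg_line hy] at e2
  obtain ⟨w, hw, rfl⟩ := tc.trans (self_mem_lns _ _) hy
  obtain ⟨Q, hQ, rfl⟩ := e2
  have w1 : w • γ = γ := smul_of_gen (inter_subset_left.trans inter_subset_right) hw
  have w2 : w • δ = δ := smul_of_gen inter_subset_right hw
  rw [← w2]
  refine smul_mem_sg.2 (e ⟨hQ, (smul_mem_sg (g := w)).1 ?_⟩)
  rw [w1]
  exact hP.2

theorem claim3 (h : Cfg β α γ i) (hδ : δ ∈ orb (gen (σ β ∩ σ α)) γ) (ne : σ α ∩ σ δ ≠ σ α ∩ σ γ)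
    (hN : 1 ≤ i ∨ ∀ δ' ∈ orb (gen (σ β ∩ σ α)) δ, σ β ∩ σ α ∩ σ δ ⊆ σ δ' → δ' = δ)
    {l l' : Set (Sylow p G)} (hl : l ∈ lns (σ β) α \ {σ β ∩ σ α})
    (hl' : l' ∈ lns (σ β) α \ {σ β ∩ σ α}) : ∃ g : G, g • γ = γ ∧ g • δ = δ ∧ g • l = l' := by
  have c := h.of_orb hδ
  have m : σ α ∩ σ δ ∈ (lns (σ α) β \ {σ α ∩ σ β}) \ {σ α ∩ σ γ} := ⟨⟨c.mem.2, c.ne⟩, ne⟩
  have a : ∀ l ∈ lns (σ β) α \ {σ β ∩ σ α}, ∀ l' ∈ lns (σ β) α \ {σ β ∩ σ α},
      ∃ v ∈ gen (σ β ∩ σ α ∩ σ γ), v • (σ α ∩ σ δ) = σ α ∩ σ δ ∧ v • l = l' := by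
    intro l hl l' hl'
    obtain ⟨v, hv, rfl⟩ := (H.cfg_tcV h).trans hl hl'
    obtain ⟨r, hr, e⟩ := (H.claim1 h hl).trans m (h.tcO.inv _ (inv_mem hv) _ m)
    refine ⟨v * r, mul_mem hv (gen_mono inter_subset_left hr), ?_, ?_⟩
    · rw [mul_smul, e, smul_inv_smul]
    · rw [mul_smul, smul_of_gen (inter_subset_right.trans ((H.symm h.cp).sg_line hl.1).ge) hr]
  rcases hN with hN | hN
  · have tc := (H.cfg_tcV h).mono inter_subset_left (h.tcO.cl.inter (cl_sg (σ α ∩ σ δ)))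
      (h.tcO.exists_fix hN m) fun y hy e => by
        obtain ⟨P, hP⟩ := h.tcO.exists_fix hN m
        have h1 := (H.cfg_tcV h).fix P hP.1
        have h2 : fx P (lns (σ β) α \ {σ β ∩ σ α}) = lns (σ β) α \ {σ β ∩ σ α} := by
          refine (fx_subset _ _).antisymm fun z hz => ⟨hz, ?_⟩
          obtain ⟨v, hv, v1, rfl⟩ := a y hy z hz
          rw [← v1, h.tcO.cl.inter_smul hv] at hP
          rw [sg_smul]
          exact smul_set_mono e hP
        rw [h2, (H.cfg_tcV h).card] at h1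
        have := hp.out.pos
        omega
    obtain ⟨g, hg, e⟩ := tc.trans hl hl'
    refine ⟨g, smul_of_gen (inter_subset_left.trans inter_subset_right) hg,
      smul_of_gen (inter_subset_right.trans ?_) hg, e⟩
    rw [h.cp.sg_line c.mem.2]
    exact inter_subset_right
  · obtain ⟨v, hv, v1, v2⟩ := a l hl l' hl'
    have hv' := gen_mono inter_subset_left hv
    refine ⟨v, smul_of_gen inter_subset_right hv, hN _ ⟨v, hv', rfl⟩ fun P hP => ?_, v2⟩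
    rw [← (cl_sg α).inter_smul (smul_fix₂ hv')] at v1
    exact (v1.ge ⟨hP.1.2, hP.2⟩).2

theorem cfg_sf (h : Cfg β α γ 0) (hδ : δ ∈ orb (gen (σ β ∩ σ α)) γ)
    (e : σ β ∩ σ α ∩ σ γ ⊆ σ δ) : δ = γ := by
  by_contra ne
  obtain ⟨l, hl, l1⟩ := (H.cfg_tc h).nontrivial (σ β ∩ σ α)
  obtain ⟨P, hP⟩ := (H.claim1 h ⟨hl, l1⟩).ne
  obtain ⟨t, ht, rfl⟩ := (H.cfg_tc h).trans (self_mem_lns _ _) hl
  have t1 := smul_fix₁ ht
  have t2 := smul_fix (smul_fix₂ ht)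
  have h' := h.smul t1
  rw [t2] at h'
  have o : t • δ ∈ orb (gen (t • (σ β ∩ σ α))) γ := by
    rw [← t2, orb_gen_smul]
    exact smul_mem_smul_set hδ
  have f : P ∈ σ (t • δ) := by
    rw [sg_smul]
    refine smul_set_mono e ?_
    rw [smul_set_inter, ← sg_smul t γ, t2]
    exact ⟨hP.2, hP.1.2⟩
  rw [← (cl_sg β).inter_smul t1] at hl l1 o
  have n1 : t • δ ≠ δ := fun e1 => ne (H.claim2 h h' hl l1 e (e1 ▸ o))
  have n2 : t • δ ≠ γ := fun e1 => ne (smul_left_cancel t (e1.trans t2.symm))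
  have d1 : δ ∈ orb (gen (σ β)) γ := ((inv_orb _ γ).mono (gen_mono inter_subset_left)).orb_subset
    (mem_orb_self _ _) hδ
  have h3 : 3 ≤ (fx P (orb (gen (σ β)) γ)).ncard :=
    (two_lt_ncard (toFinite _)).2 ⟨γ, ⟨mem_orb_self _ _, hP.1.2⟩, δ, ⟨d1, e hP.1⟩, t • δ,
      ⟨inv_orb _ _ t t1 _ d1, f⟩, Ne.symm ne, n2.symm, n1.symm⟩
  have v := H.cfg_nu h hP.1.1.1
  have b := H.bound' (inv_orb _ γ) (not_mem_orb h.ep.1) hP.1.1.1
  have lw := del_lower P (orb (gen (σ β)) γ)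
  have nd := not_dvd_orb (le_gen hP.1.1.1) hP.1.2
  have p3 := H.three_le
  rw [zero_add, mul_one] at v
  rw [v] at lw nd
  set f0 := (fx P (orb (gen (σ β)) γ)).ncard
  have p0 : (0 : ℚ) < p := by positivity
  have : (f0 : ℚ) * (p - 2) < 2 * p - 2 := by
    refine lt_of_mul_lt_mul_left ?_ p0.le
    push_cast at lw
    nlinarith [mul_lt_mul_of_pos_left b p0]
  have k : f0 * p + 2 < 2 * p + 2 * f0 := by
    have : (f0 : ℚ) * p + 2 < 2 * p + 2 * f0 := by linarith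
    exact_mod_cast this
  have p4 : p = 3 := by nlinarith
  subst p4
  exact nd (by rw [show f0 = 3 by omega]; norm_num)

theorem not_cfg (h : Cfg β α γ i) : False := by
  classical
  have hN : ∀ α δ, Cfg β α δ i →
      1 ≤ i ∨ ∀ δ' ∈ orb (gen (σ β ∩ σ α)) δ, σ β ∩ σ α ∩ σ δ ⊆ σ δ' → δ' = δ := by
    intro α δ c
    rcases Nat.eq_zero_or_pos i with rfl | e
    · exact Or.inr fun δ' => H.cfg_sf c
    · exact Or.inl e
  let T : Ω → Set Ω := fun x => {y | ∀ l ∈ lns (σ β) α, y ∈ orb (gen l) x}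
  have hT : ∀ g ∈ gen (σ β), T (g • γ) = g • T γ := fun g hg => by
    ext y
    obtain ⟨y, rfl⟩ := MulAction.surjective g y
    rw [smul_mem_smul_set_iff]
    refine ⟨fun e l hl => ?_, fun e l hl => ?_⟩
    · have := e _ ((H.symm h.cp).2.inv g hg l hl)
      rwa [orb_gen_smul, smul_mem_smul_set_iff] at this
    · have := e _ ((H.symm h.cp).2.inv _ (inv_mem hg) l hl)
      rwa [← smul_mem_smul_set_iff (a := g), ← orb_gen_smul, smul_inv_smul] at this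
  have sub : ∀ l ∈ lns (σ β) α, orb (gen l) γ ⊆ orb (gen (σ β)) γ := fun l hl =>
    ((inv_orb _ γ).mono (gen_mono (subset_of_mem_lns hl))).orb_subset (mem_orb_self _ _)
  obtain ⟨P, hP⟩ := H.ne β
  have v := H.cfg_nu h hP
  have lt := h.cp.2.lt
  rcases prim_cases (H.ep_prim h.ep).1 (T γ) (fun g hg e => by rw [← hT g hg, e]) with h1 | h1
  · have one : ∀ δ ∈ orb (gen (σ β)) γ \ {γ}, ∀ l ∈ lns (σ β) α, ∀ l' ∈ lns (σ β) α,
        δ ∈ orb (gen l) γ → δ ∈ orb (gen l') γ → l = l' := by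
      intro δ hδ l hl l' hl' o o'
      by_contra ne
      obtain ⟨a, rfl, c⟩ := H.cfg_ex h hl
      obtain ⟨a', rfl, c'⟩ := H.cfg_ex h hl'
      have eq := lns_eq_of_mem (cl_sg β) hl
      by_cases e : σ a ∩ σ δ = σ a ∩ σ γ
      · exact hδ.2 (H.claim2 c c' (eq ▸ hl') (Ne.symm ne) (fun Q hQ => (e.ge ⟨hQ.1.2, hQ.2⟩).2) o')
      have m : δ ∈ T γ := fun l hl1 => by
        by_cases e1 : l = σ β ∩ σ a
        · rwa [e1]
        obtain ⟨g, g1, g2, rfl⟩ := H.claim3 c o e (hN a δ (c.of_orb o)) ⟨eq ▸ hl', Ne.symm ne⟩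
          ⟨eq ▸ hl1, e1⟩
        rw [← g1, ← g2, orb_gen_smul]
        exact smul_mem_smul_set o'
      obtain ⟨g, hg, rfl⟩ := hδ.1
      refine hδ.2 (h1 g hg ?_)
      rw [← hT g hg]
      ext y
      exact forall₂_congr fun l hl => by rw [orb_eq (m l hl)]
    have cnt : (lns (σ β) α).ncard * (p + i) ≤ (orb (gen (σ β)) γ \ {γ}).ncard * 1 := by
      rw [ncard_eq_toFinset_card, ncard_eq_toFinset_card (_ \ _)]
      refine Finset.card_mul_le_card_mul (fun l δ => δ ∈ orb (gen l) γ) (fun l hl => ?_)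
        fun δ hδ => Finset.card_le_one.2 fun l hl l' hl' => ?_
      · rw [Finite.mem_toFinset] at hl
        obtain ⟨a, rfl, c⟩ := H.cfg_ex h hl
        have a1 := c.le_ncard
        have a2 := ncard_sdiff_singleton_add_one (mem_orb_self (gen (σ β ∩ σ a)) γ)
        rw [← ncard_coe_finset]
        refine le_trans (by omega) (ncard_le_ncard (s := orb (gen (σ β ∩ σ a)) γ \ {γ})
          fun y hy => ?_)
        simpa using ⟨⟨sub _ hl hy.1, hy.2⟩, hy.1⟩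
      · simp only [Finset.mem_bipartiteBelow, Finite.mem_toFinset] at hδ hl hl'
        exact one δ hδ l hl.1 l' hl'.1 hl.2 hl'.2
    have a2 := ncard_sdiff_singleton_add_one (mem_orb_self (gen (σ β)) γ)
    rw [(H.symm h.cp).2.card] at cnt
    have a3 : (p + i + 1) ^ 2 ≤ (orb (gen (σ β)) γ).ncard := by nlinarith
    exact (H.bound' (inv_orb _ γ) (not_mem_orb h.ep.1) hP).not_ge
      (cfg_arith (i := i) (by positivity) (by exact_mod_cast lt) (by exact_mod_cast a3)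
        (by exact_mod_cast v) (del_lower P _))
  · have full : ∀ x ∈ orb (gen (σ β)) γ, ∀ y ∈ orb (gen (σ β)) γ, y ∈ T x := by
      rintro _ ⟨g, hg, rfl⟩ _ ⟨k, hk, rfl⟩
      rw [hT g hg, h1 g hg, ← h1 k hk]
      exact smul_mem_smul_set fun l _ => mem_orb_self _ _
    have c : ∀ x ∈ orb (gen (σ β)) γ, Cfg β α x i := fun x hx =>
      h.of_orb (full γ (mem_orb_self _ _) x hx _ (self_mem_lns _ _))
    have a1 : (orb (gen (σ β)) γ).ncard ≤ (lns (σ α) β \ {σ α ∩ σ β}).ncard := by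
      refine ncard_le_ncard_of_injOn (fun x => σ α ∩ σ x) (fun x hx => ⟨(c x hx).mem.2, (c x hx).ne⟩)
        fun x hx y hy e => ?_
      obtain ⟨l, hl, l1⟩ := (H.cfg_tc h).nontrivial (σ β ∩ σ α)
      obtain ⟨a, rfl, c'⟩ := H.cfg_ex (c x hx) hl
      exact (H.claim2 (c x hx) c' hl l1 (fun Q hQ => (e.le ⟨hQ.1.2, hQ.2⟩).2)
        (full x hx y hy _ hl)).symm
    rw [(h.cp.step (self_mem_lns _ _)).card] at a1
    have a2 : (orb (gen (σ β)) γ).ncard = p + (i + 1) :=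
      le_antisymm a1 (h.le_ncard.trans (ncard_le_ncard (sub _ (self_mem_lns _ _))))
    rw [a2, mul_comm] at v
    have a3 := Nat.eq_of_mul_eq_mul_right (by omega) v
    have a4 := del_upper ((inv_orb _ γ).mono (le_gen hP)) (by rw [a2, a3])
    have a5 := (H.ep_prim h.ep).2 P hP
    rw [← a3] at a4
    push_cast at a4
    have : (0 : ℚ) ≤ i := by positivity
    linarith

end Hyp

end Cfsg.Agent.SylOrb
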