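import Cfsg.Agent.SylOrb.Geo3

/-!
The contradiction for primitive actions of small defect whose point stabiliser is not primitive.
-/

set_option autoImplicit false
set_option linter.unusedSectionVars false

namespace Cfsg.Agent.SylOrb

open MulAction Set
open scoped Pointwise

universe u

variable {G : Type u} [Group G] {p : ℕ} {Ω : Type*} [MulAction G Ω] [Finite G]
  [hp : Fact p.Prime] [Finite Ω]

local notation "σ" => sg G p
local notation "CP" => SylOrb.CP G p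
local notation "EP" => SylOrb.EP G p
local notation "cls" => SylOrb.cls G p
local notation "U1" => SylOrb.U1 G p

variable (G p) in
/-- the group generated by the Sylow subgroups fixing `α` is not primitive on the other points -/
def Multi (α : Ω) : Prop :=
  ∀ β, orb (gen (σ α)) β = {α}ᶜ → ¬ gen (σ α) ⊓ stabilizer G β ⋖ gen (σ α)

variable (G p) in
/-- the points of cyclic type -/
def Gam (α : Ω) : Set Ω := {y | CP α y 1}

local notation "Γ" => SylOrb.Gam G p

variable {α β γ ε : Ω} {i j : ℕ}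

theorem Multi.ne (M : Multi G p α) (h : CP α β j) (u : U1 α β) : cls α β ≠ {α}ᶜ := fun e => by
  have tc := h.tc_cls u
  refine M β (e ▸ tc.orb_eq h.mem_cls) (covBy_of_eq_or_eq (lt_of_le_of_ne inf_le_left fun e1 =>
    tc.fpf β h.mem_cls fun P hP g hg => (e1.ge (le_gen hP hg)).2) fun T h1 h2 => ?_)
  by_cases a : ∀ t ∈ T, t • β = β
  · exact Or.inl (le_antisymm (fun t ht => ⟨h2 ht, a t ht⟩) h1)
  push Not at a
  obtain ⟨t, ht, a⟩ := a
  refine Or.inr (h2.antisymm fun g hg => ?_)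
  by_cases b : g • β = β
  · exact h1 ⟨hg, b⟩
  obtain ⟨k, hk, e1⟩ := (tc.step' h.1 h.mem_cls).trans ⟨tc.inv t (h2 ht) β h.mem_cls, a⟩
    ⟨tc.inv g hg β h.mem_cls, b⟩
  have k1 : k * t ∈ T := mul_mem (h1 ⟨smul_fix₁ hk, smul_fix (smul_fix₂ hk)⟩) ht
  have k2 : (k * t)⁻¹ * g ∈ T := h1 (Subgroup.mem_inf.2 ⟨mul_mem (inv_mem (h2 k1)) hg, by
    rw [mem_stabilizer_iff, mul_smul, inv_smul_eq_iff, mul_smul, e1]⟩)
  exact (T.mul_mem_cancel_left (inv_mem k1)).1 k2

theorem clq_orb {L : Subgroup G} {K : Set Ω} (hK : Inv L K) {b c : Ω}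
    (h : ∃ b' j, CP b b' j ∧ K \ {b} = cls b b') (hc : c ∈ orb L b) :
    ∃ b' j, CP c b' j ∧ K \ {c} = cls c b' := by
  obtain ⟨g, hg, rfl⟩ := hc
  obtain ⟨b', j, c1, e⟩ := h
  refine ⟨g • b', j, c1.smul g, ?_⟩
  rw [cls_smul, ← e, smul_set_sdiff, smul_set_singleton, hK.smul_eq hg]

theorem U1.symm (u : U1 α β) : U1 β α := fun x hx e =>
  by_contra fun e1 => hx (u x e1 (by rwa [inter_comm]))

theorem gam_smul (g : G) (α : Ω) : Γ (g • α) = g • Γ α := by
  ext x
  obtain ⟨x, rfl⟩ := MulAction.surjective g x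
  rw [smul_mem_smul_set_iff]
  exact ⟨fun h => show CP α x 1 by simpa using CP.smul h g⁻¹, fun h => CP.smul h g⟩

theorem inv_gam (α : Ω) : Inv (gen (σ α)) (Γ α) := fun g hg _ hy => CP.of_orb hy ⟨g, hg, rfl⟩

namespace Hyp

variable (H : Hyp G p Ω)
include H

theorem cls_compl (h : CP α β j) (u : U1 α β) (hγ : γ ∈ cls α β \ {β}) (hγ' : γ ∈ cls β α) :
    cls α β = {α}ᶜ := by
  have h' := H.symm h
  have e1 := ((h.tc_cls u).step' h.1 h.mem_cls).orb_eq hγ
  have e2 := ((h'.tc_cls u.symm).step' h.1 h'.mem_cls).orb_eq ⟨hγ', hγ.1.1⟩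
  rw [inter_comm, e1] at e2
  have a : insert α (cls α β) \ {α} = cls α β :=
    insert_sdiff_self_of_notMem fun e => e.1 rfl
  have : Clq G p (insert α (cls α β)) := by
    rintro b (rfl | hb)
    · exact ⟨β, j, h, a⟩
    · refine clq_orb (L := gen (σ α)) ?_ ⟨α, j, h', ?_⟩ (u.of_mem hb).2
      · exact (inv_singleton fun g hg => smul_fix hg).union (inv_cls α β)
      · rw [insert_sdiff_of_notMem _ (show α ∉ ({β} : Set Ω) from h.ne.symm), e2, insert_sdiff_singleton,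
          insert_eq_of_mem h'.mem_cls]
  rw [← a, H.clq_univ this (mem_insert _ _), compl_eq_univ_sdiff]

theorem eq_one (M : Multi G p α) (h : CP α β j) : j = 1 := by
  by_contra j1
  obtain ⟨i, rfl⟩ : ∃ i, j = i + 2 := ⟨j - 2, by have := h.1; omega⟩
  have cp : ∀ γ ∈ cls α β, σ α ∩ σ γ ≠ σ α ∩ σ β → ∃ k, CP β γ k := fun γ m ne =>
    (cp_or_ep G p fun e => ne (by rw [e])).resolve_right fun e => H.not_cfg ⟨h, m, ne, e⟩
  by_cases u : U1 α β
  · obtain ⟨γ, γ1, γ2⟩ := (h.tc_cls u).nontrivial β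
    obtain ⟨k, c⟩ := cp γ γ1 fun e => γ2 (u γ γ1.1 (e.ge.trans inter_subset_right))
    by_cases a : σ β ∩ σ α ∈ lns (σ β) γ
    · refine M.ne h u (H.cls_compl h u ⟨γ1, γ2⟩ ?_)
      rw [cls_eq ⟨h.ne.symm, a⟩]
      exact c.mem_cls
    · have : Clq G p (cls α β) := fun b hb =>
        clq_orb (inv_cls α β) ⟨γ, k, c, H.cls_sdiff h u ⟨γ1, γ2⟩ c a⟩ (u.of_mem hb).2
      exact ((H.clq_univ this h.mem_cls).ge (mem_univ α)).1 rfl
  · simp only [SylOrb.U1, not_forall] at u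
    obtain ⟨x, x1, x2, x3⟩ := u
    obtain ⟨s, s1, s2⟩ := h.2.nontrivial (σ α ∩ σ β)
    obtain ⟨g, hg, rfl⟩ := h.2.trans (self_mem_lns _ _) s1
    have x4 := H.pls h.ne h.col x2 x1
    have m1 : g • β ∈ cls α β := inv_cls α β g hg β h.mem_cls
    have m2 : g • x ∈ cls α β := inv_cls α β g hg x ⟨x1, x4 ▸ self_mem_lns _ _⟩
    have e1 : σ α ∩ σ (g • x) = σ α ∩ σ (g • β) := by
      rw [(cl_sg α).inter_smul hg, (cl_sg α).inter_smul hg, x4]
    rw [← (cl_sg α).inter_smul hg] at s2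
    have ne : g • x ≠ g • β := fun e => x3 (smul_left_cancel g e)
    generalize g • β = γ at *
    generalize g • x = γ' at *
    obtain ⟨t1, u1⟩ := H.tri h (by omega) m1 s2
    obtain ⟨-, u2⟩ := H.tri h (by omega) m2 (e1 ▸ s2)
    obtain ⟨k, c⟩ := cp γ' m2 (e1 ▸ s2)
    have tc := c.tc_cls u2
    have col : (σ β ∩ σ α).Nonempty := by rw [inter_comm]; exact h.col
    have tcA := tc.mono inter_subset_left ((cl_sg β).inter (cl_sg α)) col fun y hy e =>
      x1 ((u2.of_mem ⟨h.ne.symm, H.pls h.ne.symm col e hy.1 ▸ hy.2⟩).1 x x3 (by rwa [inter_comm]))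
    have n1 : γ ∉ cls β γ' := fun e =>
      ne (tcA.eq_of_subset c.1 c.mem_cls e fun P hP => (e1.le ⟨hP.1.2, hP.2⟩).2)
    have tcB := tc.mono inter_subset_left ((cl_sg β).inter (cl_sg γ))
      (t1.mono fun _ h => ⟨h.1.2, h.2⟩) fun y hy e => n1 (u1 y hy.1 e ▸ hy)
    obtain ⟨s, s3, s4⟩ := (h.step (self_mem_lns _ _)).nontrivial (σ α ∩ σ γ)
    obtain ⟨r, hr, rfl⟩ := (h.step (self_mem_lns _ _)).trans ⟨m1.2, s2⟩ s3
    rw [← e1, ← (cl_sg α).inter_smul (smul_fix₁ hr), e1] at s4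
    have hγ := h.of_mem m1.2
    have u3 := (H.tri hγ (by omega) (cls_eq m1 ▸ inv_cls α β r (smul_fix₁ hr) γ' m2) s4).2
    obtain ⟨w, hw, e2⟩ := tcB.trans (tc.inv r (smul_fix₂ hr) γ' c.mem_cls) c.mem_cls
    have u4 := u3.smul w
    rw [e2, smul_fix (smul_fix₂ hw)] at u4
    refine m2.1 (u4 α m1.1.symm ?_).symm
    rw [H.pls m1.1.symm (by rw [inter_comm]; exact hγ.col)
      (by rw [inter_comm, ← e1]; exact inter_subset_right) ne]
    exact inter_subset_right

theorem ncard_gam {P : Sylow p G} (hP : P ∈ σ α) :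
    (Γ α).ncard = (p + 1) * (fx P (Γ α)).ncard := by
  rcases (Γ α).eq_empty_or_nonempty with e | ⟨β, h⟩
  · simp [e, fx]
  have h1 := nu_count (inv_gam α) hP (a := (σ α ∩ σ β).ncard) fun y hy =>
    Nat.eq_of_mul_eq_mul_left p.succ_pos ((CP.nu hy).trans (CP.nu h).symm)
  have h2 := CP.nu h
  refine Nat.eq_of_mul_eq_mul_left (H.ncard_sg_pos α) ?_
  calc _ = (Γ α).ncard * ((σ α).ncard * 1) := by ring
    _ = (p + 1) * ((Γ α).ncard * (σ α ∩ σ β).ncard) := by rw [← h2]; ring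
    _ = _ := by rw [h1]; ring

theorem del_gam {P : Sylow p G} (hP : P ∈ σ α) :
    (p - 2 : ℚ) * (fx P (Γ α)).ncard ≤ del P (Γ α) := by
  have h := del_lower P (Γ α)
  rw [H.ncard_gam hP] at h
  have h0 : (0 : ℚ) < p := by exact_mod_cast hp.out.pos
  push_cast at h
  exact le_of_mul_le_mul_left (by linarith) h0

theorem u1_of_le (h : CP α β 1) (e : (Γ α).ncard ≤ p + 1) : U1 α β ∧ cls α β = Γ α := by
  have s : cls α β ⊆ Γ α := fun x hx => h.of_mem hx.2
  have a : (fun x => σ α ∩ σ x) '' cls α β = lns (σ α) β :=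
    subset_antisymm (by rintro _ ⟨x, hx, rfl⟩; exact hx.2) fun t ht =>
      let ⟨x, hx, _, e⟩ := exists_of_mem_lns h.ne ht
      ⟨x, hx, e⟩
  have b := ncard_image_le (f := fun x => σ α ∩ σ x) (toFinite (cls α β))
  have c := ncard_le_ncard s
  rw [a, h.2.card] at b
  have d := injOn_of_ncard_image_eq (f := fun x => σ α ∩ σ x) (s := cls α β)
    (by rw [a, h.2.card]; omega)
  refine ⟨fun x x1 x2 => ?_, eq_of_subset_of_ncard_le s (by omega)⟩
  have x4 := H.pls h.ne h.col x2 x1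
  exact d ⟨x1, x4 ▸ self_mem_lns _ _⟩ h.mem_cls x4

theorem gam_inj (h : CP α β 1) {x y : Ω} (e : Γ x = Γ y) : y = x := by
  obtain ⟨g, rfl⟩ := H.trans x y
  rcases prim_cases (H.prim x) (Γ x) (fun k _ hk => by rw [← gam_smul, hk]) with h1 | h1
  · exact h1 g trivial (by rw [← gam_smul, e])
  · have h2 : ∀ z, Γ z = Γ x := fun z => by
      obtain ⟨k, rfl⟩ := H.trans x z
      rw [gam_smul, h1 k trivial]
    exact absurd rfl (CP.ne (((h2 α).trans (h2 β).symm).le h))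

theorem gam_add (h : EP α ε) {P : Sylow p G} (hP : P ∈ σ α) :
    del P (Γ α) + del P (orb (gen (σ α)) ε) < 2 * p - 2 := by
  rw [← del_union P (X := Γ α) (disjoint_left.2 fun x h1 h2 => (h.of_orb h2).2 1 h1)]
  exact H.bound' ((inv_gam α).union (inv_orb _ _))
    (fun e => e.elim (fun e => CP.ne e rfl) (not_mem_orb h.1)) hP

theorem not_ep (one : ∀ (x y : Ω) j, CP x y j → j = 1) (h : CP α β 1) : ¬ EP α ε := fun he => by
  have p3 := H.three_le
  have p3' : (3 : ℚ) ≤ p := by exact_mod_cast p3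
  have c1 : (Γ α).ncard = p + 1 := by
    obtain ⟨P, hP⟩ := H.ne α
    have a1 := H.gam_add he hP
    have a2 := H.del_gam hP
    have a3 := (H.ep_prim he).2 P hP
    have a4 := H.ncard_gam hP
    have a5 : 0 < (Γ α).ncard := (ncard_pos (toFinite _)).2 ⟨β, h⟩
    have a6 : (fx P (Γ α)).ncard < 2 := by
      by_contra e
      have : (2 : ℚ) ≤ (fx P (Γ α)).ncard := by exact_mod_cast not_lt.1 e
      nlinarith
    have a7 : (fx P (Γ α)).ncard ≠ 0 := fun e => by rw [e] at a4; omega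
    rw [a4, show (fx P (Γ α)).ncard = 1 by omega, mul_one]
  have c2 : ∀ x, (Γ x).ncard = p + 1 := fun x => by
    obtain ⟨g, rfl⟩ := H.trans α x
    rw [gam_smul, ncard_smul, c1]
  obtain ⟨u, e⟩ := H.u1_of_le h c1.le
  have h' := H.symm h
  have e' := (H.u1_of_le h' (c2 β).le).2
  have tc := h.tc_cls u
  obtain ⟨γ, γ1, γ2⟩ := tc.nontrivial β
  rcases cp_or_ep G p γ2 with ⟨k, c⟩ | c
  · obtain rfl := one _ _ _ c
    have := H.cls_compl h u ⟨γ1, γ2⟩ (e'.ge c)
    exact he.2 1 (e.le (this.ge he.1))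
  by_cases col : (σ β ∩ σ γ).Nonempty
  · have tc' := (h'.tc_cls u.symm).mono inter_subset_left ((cl_sg β).inter (cl_sg γ)) col
      fun y hy e1 => c.2 1 (H.ep_line c col e1 hy.1 ▸ e'.le hy)
    refine γ2 (H.gam_inj h (eq_of_subset_of_ncard_le (fun y hy => ?_) (by rw [c2, c2])))
    obtain ⟨r, hr, rfl⟩ := tc'.trans h'.mem_cls (e'.ge hy)
    exact inv_gam γ r (smul_fix₂ hr) α (H.symm (e.le γ1))
  · obtain ⟨P, hP⟩ := h.col
    have f0 : ∀ z ∈ orb (gen (σ β)) γ, P ∉ σ z := by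
      rintro _ ⟨g, hg, rfl⟩ e1
      exact col ⟨g⁻¹ • P, (cl_sg β).smul_mem (inv_mem hg) hP.2, mem_sg_smul.1 e1⟩
    have a0 : fx P (orb (gen (σ β)) γ) = ∅ := eq_empty_of_forall_notMem fun z hz => f0 z hz.1 hz.2
    have a1 := H.gam_add c hP.2
    have a2 := H.del_gam hP.2
    have a3 := del_lower P (orb (gen (σ β)) γ)
    have a4 := H.ncard_gam hP.2
    rw [c2] at a4
    rw [← Nat.eq_of_mul_eq_mul_left p.succ_pos ((mul_one _).trans a4)] at a2
    rw [a0, ncard_empty] at a3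
    have st := tc.step h.mem_cls
    have sub : cls α β \ {β} ⊆ orb (gen (σ β)) γ := fun y hy =>
      let ⟨g, hg, e⟩ := st.trans ⟨γ1, γ2⟩ hy
      ⟨g, smul_fix₂ hg, e⟩
    have eq : cls α β \ {β} = orb (gen (σ β)) γ := by
      by_contra ne
      obtain ⟨z, z1, z2⟩ := exists_of_ssubset (ssubset_iff_subset_ne.2 ⟨sub, ne⟩)
      have b1 := ncard_le_ncard ((((inv_orb _ γ).mono (le_gen hP.2)).diff
        (st.inv.mono (le_gen hP))).orb_subset ⟨z1, z2⟩)
      have b2 := le_ncard_orb' (f0 z z1)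
      have b3 := ncard_sdiff_add_ncard_of_subset sub
      rw [st.card] at b3
      have : (2 * p : ℚ) ≤ (orb (gen (σ β)) γ).ncard := by exact_mod_cast (by omega)
      push_cast at a2 a3
      nlinarith
    refine h.ne.symm (H.fix1 fun Q hQ g hg => H.gam_inj h ?_)
    rw [gam_smul, ← e, ← sdiff_union_of_subset (singleton_subset_iff.2 h.mem_cls), eq]
    exact (((inv_orb _ γ).union (inv_singleton fun g hg => smul_fix hg)).smul_eq
      (le_gen hQ hg)).symm

theorem cls_univ (all : ∀ x y : Ω, y ≠ x → CP x y 1) (h : β ≠ α) : cls α β = {α}ᶜ := by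
  have key : ∀ x y : Ω, y ≠ x →
      insert x (cls x y) = {z | σ x ∩ σ y ⊆ σ z ∨ σ x ∩ σ y ∩ σ z = ∅} := fun x y e => by
    have c := all x y e
    ext z
    rw [mem_insert_iff]
    constructor
    · rintro (rfl | hz)
      · exact Or.inl inter_subset_left
      · refine or_iff_not_imp_left.2 fun e1 => eq_empty_of_forall_notMem fun P hP => ?_
        have := (c.step (self_mem_lns _ _)).fix P hP.1
        rw [Nat.sub_self, ncard_eq_zero] at this
        refine notMem_empty (σ x ∩ σ z) (this.le ⟨⟨hz.2, fun e2 => e1 ?_⟩, ?_⟩)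
        · exact e2.ge.trans inter_subset_right
        · rw [c.sg_line hz.2]
          exact ⟨hP.1.1, hP.2⟩
    · intro hz
      refine or_iff_not_imp_left.2 fun zx => ⟨zx, ?_⟩
      rcases hz with hz | hz
      · exact H.pls e c.col hz zx ▸ self_mem_lns _ _
      · rcases H.dich (all x z zx) e c.col with d | d
        · exact lns_eq_of_mem (cl_sg x) d ▸ self_mem_lns _ _
        · obtain ⟨P, hP⟩ := d.exists_fix le_rfl (self_mem_lns _ _)
          rw [(all x z zx).sg_line (self_mem_lns _ _)] at hP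
          exact absurd (hz.le ⟨hP.1, hP.2.2⟩) id
  have a : ∀ x y : Ω, insert x (cls x y) \ {x} = cls x y := fun x y =>
    insert_sdiff_self_of_notMem fun e => e.1 rfl
  have : Clq G p (insert α (cls α β)) := by
    rintro b (rfl | hb)
    · exact ⟨β, 1, all _ _ h, a _ _⟩
    · refine ⟨α, 1, all _ _ hb.1.symm, ?_⟩
      rw [← cls_eq hb, key _ _ hb.1, inter_comm, ← key _ _ hb.1.symm, a]
  rw [← a, H.clq_univ this (mem_insert _ _), compl_eq_univ_sdiff]

theorem plane (all : ∀ x y : Ω, y ≠ x → CP x y 1) {P : Sylow p G}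
    (hP : (fx P (univ : Set Ω)).ncard = p + 1) : False := by
  obtain ⟨y, hy⟩ := H.move P
  have hy' := hy
  simp only [sg, mem_ofPred_eq, not_forall] at hy'
  obtain ⟨g, hg, ne⟩ := hy'
  have c := all y _ ne
  have n1 : ∀ a ∈ fx P (univ : Set Ω), a ≠ y := fun a ha e => hy (e ▸ ha.2)
  obtain ⟨a, ha, e⟩ := surj_on_of_inj_on_of_ncard_le (s := fx P (univ : Set Ω))
    (t := lns (σ y) (g • y)) (fun a _ => σ y ∩ σ a)
    (fun a ha => ((H.cls_univ all ne).ge (n1 a ha)).2) (fun a b ha hb e => by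
      by_contra e1
      have := H.pls (n1 a ha).symm (all a y (n1 a ha).symm).col
        (by rw [inter_comm]; exact e.le.trans inter_subset_right) (Ne.symm e1)
      exact hy (this.le ⟨ha.2, hb.2⟩).2) (by rw [c.2.card, hP]) (toFinite _) _ (self_mem_lns _ _)
  have g1 : g • a = a := ha.2 g hg
  have col := (all a y (n1 a ha).symm).col
  have e1 := H.pls (n1 a ha).symm col (by rw [inter_comm]; exact e.ge.trans inter_subset_right)
    (γ := g • y) fun e => n1 a ha (smul_left_cancel g (g1.trans e.symm))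
  refine ne (smul_of_gen inter_subset_right (mem_gen_of_smul col hg ?_))
  rw [smul_set_inter, ← sg_smul, ← sg_smul, g1, e1]

theorem false (M : Multi G p α) {P : Sylow p G} (hP : P ∈ σ α)
    (h1 : ¬ p ∣ (fx P ({α}ᶜ : Set Ω)).ncard + 1)
    (h2 : del P ({α}ᶜ : Set Ω) + (((fx P ({α}ᶜ : Set Ω)).ncard + 1) % p : ℕ) < 2 * p - 1) :
    False := by
  have one : ∀ (x y : Ω) j, CP x y j → j = 1 := fun x y j c => by
    obtain ⟨g, rfl⟩ := H.trans x α
    exact H.eq_one M (c.smul g)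
  obtain ⟨β, h⟩ : ∃ β, CP α β 1 := by
    by_contra e
    have a : ∀ β, β ≠ α → EP α β := fun β hβ =>
      ⟨hβ, fun j c => e ⟨β, one _ _ _ c ▸ c⟩⟩
    obtain ⟨x, hx⟩ := H.move P
    have x1 : x ≠ α := fun e => hx (e ▸ hP)
    exact M x (((inv_compl α).orb_subset x1).antisymm fun y hy => H.ep_orb (a x x1) (a y hy))
      (H.ep_prim (a x x1)).1
  have all : ∀ x y : Ω, y ≠ x → CP x y 1 := fun x y e => by
    obtain ⟨g, rfl⟩ := H.trans α x
    obtain ⟨j, c⟩ := (cp_or_ep G p e).resolve_right (H.not_ep one (h.smul g))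
    exact one _ _ _ c ▸ c
  have e : Γ α = {α}ᶜ := subset_antisymm (fun _ c => CP.ne c) fun y hy => all α y hy
  have a1 := H.ncard_gam hP
  have a2 := H.del_gam hP
  have a3 : 0 < (Γ α).ncard := (ncard_pos (toFinite _)).2 ⟨β, h⟩
  have p3 := H.three_le
  rw [← e] at h1 h2
  have f1 : (fx P (univ : Set Ω)).ncard = (fx P (Γ α)).ncard + 1 := by
    rw [← ncard_sdiff_singleton_add_one (show α ∈ fx P univ from ⟨trivial, hP⟩), e]
    congr 2
    ext x
    simp [fx, and_comm]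
  generalize (fx P (Γ α)).ncard = f at *
  have a4 : p * f + (f + 1) % p + 1 < 2 * p + 2 * f := by
    have : (p * f + ((f + 1) % p : ℕ) + 1 : ℚ) < 2 * p + 2 * f := by linarith
    exact_mod_cast this
  have a5 : (f + 1) % p ≠ 0 := fun e => h1 (Nat.dvd_of_mod_eq_zero e)
  rcases (by omega : f = 0 ∨ f = 1 ∨ f = 2 ∨ 3 ≤ f) with rfl | rfl | rfl | f3
  · omega
  · obtain ⟨u, e1⟩ := H.u1_of_le h (by omega)
    exact M.ne h u (e1.trans e)
  · rcases (by omega : p = 3 ∨ 3 < p) with rfl | p4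
    · exact a5 rfl
    · rw [Nat.mod_eq_of_lt p4] at a4
      omega
  · have p4 : p = 3 := by
      by_contra e
      obtain ⟨q, rfl⟩ : ∃ q, p = q + 4 := ⟨p - 4, by omega⟩
      obtain ⟨k, rfl⟩ : ∃ k, f = k + 3 := ⟨f - 3, by omega⟩
      have : 1 ≤ (k + 3 + 1) % (q + 4) := by omega
      nlinarith
    subst p4
    exact H.plane all (f1.trans (by omega))

end Hyp

end Cfsg.Agent.SylOrb
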