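import Cfsg.Agent.SylOrb.Del

/-!
The inductive claim and its consequences for orbits of groups generated by Sylow subgroups.
-/

set_option autoImplicit false
set_option linter.unusedSectionVars false

namespace Cfsg.Agent.SylOrb

open MulAction Set
open scoped Pointwise

universe u

variable {G : Type u} [Group G] {p : ℕ} {Y Z : Type*} [MulAction G Y] [MulAction G Z]
  [Finite G] [hp : Fact p.Prime] [Finite Y] [Finite Z]

local notation "σ" => sg G p

/-- the conclusion for primitive actions -/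
def Concl (P : Sylow p G) (X : Set Y) : Prop :=
  (X.ncard = p + (fx P X).ncard ∧ (fx P X).ncard < p) ∨
    (2 * p - 2 : ℚ) ≤ del P X + ((fx P X).ncard % p : ℕ)

/-- the inductive claim for primitive orbits of subgroups -/
def SV (G : Type u) [Group G] (p n : ℕ) : Prop :=
  ∀ (Y : Type u) [MulAction G Y] [Finite Y] (L : Subgroup G) (x : Y) (P : Sylow p G),
    (P : Subgroup G) ≤ L → L ⊓ stabilizer G x ⋖ L → (∃ y ∈ orb L x, P ∉ sg G p y) →
    (orb L x).ncard ≤ n → Concl P (orb L x)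

/-- the traces of the points of an orbit -/
def lns (s : Set (Sylow p G)) (x : Y) : Set (Set (Sylow p G)) :=
  (fun z => s ∩ σ z) '' orb (gen s) x

theorem Concl.cases {P : Sylow p G} {X : Set Y} (h : Concl P X) :
    (X.ncard = p + (fx P X).ncard ∧ 1 ≤ (fx P X).ncard ∧ (fx P X).ncard < p ∧ 0 ≤ del P X) ∨
      (p - 1 : ℚ) ≤ del P X := by
  have h0 : (0 : ℚ) < p := by exact_mod_cast hp.out.pos
  rcases h with ⟨h1, h2⟩ | h
  · have h3 := del_lower P X
    rw [h1] at h3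
    push_cast at h3
    have h4 : (p - 1 - (fx P X).ncard : ℚ) ≤ del P X :=
      le_of_mul_le_mul_left (by linarith) h0
    rcases Nat.eq_zero_or_pos (fx P X).ncard with e | e
    · right
      simpa [e] using h4
    · have : ((fx P X).ncard + 1 : ℚ) ≤ p := by exact_mod_cast h2
      exact Or.inl ⟨h1, e, h2, by linarith⟩
  · have : (((fx P X).ncard % p : ℕ) + 1 : ℚ) ≤ p := by
      exact_mod_cast Nat.mod_lt _ hp.out.pos
    right
    linarith

theorem Concl.nonneg {P : Sylow p G} {X : Set Y} (h : Concl P X) : 0 ≤ del P X := by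
  have h0 : (1 : ℚ) ≤ p := by exact_mod_cast hp.out.pos
  rcases h.cases with h | h
  · exact h.2.2.2
  · linarith

theorem not_subset_orb {s : Set (Sylow p G)} {x y : Y} (h : ¬ s ⊆ σ x)
    (hy : y ∈ orb (gen s) x) : ¬ s ⊆ σ y := fun e => by
  obtain ⟨g, hg, rfl⟩ := orb_symm hy
  rw [smul_of_gen e hg] at h
  exact h e

theorem exists_moved {s : Set (Sylow p G)} {x : Y} (h : ¬ s ⊆ σ x) {P : Sylow p G}
    (hP : P ∈ s) : ∃ y ∈ orb (gen s) x, P ∉ σ y := by
  obtain ⟨Q, hQ, hx⟩ := not_subset.1 h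
  obtain ⟨g, hg, rfl⟩ := exists_conj (le_gen hQ) (le_gen hP)
  exact ⟨g • x, ⟨g, hg, rfl⟩, by rwa [smul_mem_sg]⟩

theorem SV.quot {n : ℕ} (hn : SV G p n) {s : Set (Sylow p G)} {x : Y}
    (h : ¬ s ⊆ σ x) (hx : (orb (gen s) x).ncard ≤ n) :
    ∃ (W : Subgroup G) (y : G ⧸ W), gen s ⊓ stabilizer G x ≤ stabilizer G y ∧
      gen s ⊓ stabilizer G y ⋖ gen s ∧ ¬ s ⊆ σ y ∧ ∀ P ∈ s, Concl P (orb (gen s) y) := by
  have h1 : gen s ⊓ stabilizer G x < gen s :=
    lt_of_le_of_ne inf_le_left fun e => h fun P hP g hg => (e.ge (le_gen hP hg)).2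
  obtain ⟨W, w1, w2⟩ := exists_le_covBy_of_lt h1
  have w3 : stabilizer G ((1 : G) : G ⧸ W) = W := stabilizer_quotient W
  have w4 : gen s ⊓ stabilizer G ((1 : G) : G ⧸ W) ⋖ gen s := by
    rwa [w3, inf_eq_right.2 w2.le]
  have w5 : ¬ s ⊆ σ ((1 : G) : G ⧸ W) := fun e =>
    w4.lt.not_ge fun g hg => ⟨hg, smul_of_gen e hg⟩
  have w6 : gen s ⊓ stabilizer G x ≤ stabilizer G ((1 : G) : G ⧸ W) := by rwa [w3]
  exact ⟨W, _, w6, w4, w5, fun P hP => hn _ _ _ P (le_gen hP) w4 (exists_moved w5 hP)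
    ((ncard_orb_le w6).trans hx)⟩

theorem SV.nonneg {n : ℕ} (hn : SV G p n) {s : Set (Sylow p G)} {x : Y}
    (h : ¬ s ⊆ σ x) (hx : (orb (gen s) x).ncard ≤ n) {P : Sylow p G} (hP : P ∈ s) :
    0 ≤ del P (orb (gen s) x) := by
  obtain ⟨W, y, w1, -, -, w4⟩ := hn.quot h hx
  have h1 := del_quot (le_gen hP) w1
  have h2 : (0 : ℚ) < Nat.card ↥(gen s ⊓ stabilizer G x) := by exact_mod_cast Nat.card_pos
  exact nonneg_of_mul_nonneg_right ((mul_nonneg (Nat.cast_nonneg _) (w4 P hP).nonneg).trans h1) h2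

theorem SV.dich {n : ℕ} (hn : SV G p n) {s : Set (Sylow p G)} (hs : Cl s) (hne : s.Nonempty)
    {x : Y} (h : ¬ s ⊆ σ x) (hx : (orb (gen s) x).ncard ≤ n)
    (hd : ∀ P ∈ s, del P (orb (gen s) x) < 2 * p - 2) :
    (gen s ⊓ stabilizer G x ⋖ gen s ∧ ∀ P ∈ s, (p - 1 : ℚ) ≤ del P (orb (gen s) x)) ∨
      ∃ j, 1 ≤ j ∧ TC s (lns s x) j := by
  obtain ⟨W, y, w1, w2, w3, w4⟩ := hn.quot h hx
  obtain ⟨P, hP⟩ := hne
  have h0 : (2 : ℚ) ≤ p := by exact_mod_cast hp.out.two_le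
  have h2 : (0 : ℚ) < Nat.card ↥(gen s ⊓ stabilizer G x) := by exact_mod_cast Nat.card_pos
  rcases (w4 P hP).cases with ⟨c1, c2, c3, c4⟩ | c
  · refine Or.inr ⟨_, c2, ?_⟩
    have tc : TC s (orb (gen s) y) (fx P (orb (gen s) y)).ncard :=
      ⟨hs, ⟨P, hP⟩, inv_orb _ _, c1, c3, fun Q hQ => by
        obtain ⟨g, hg, rfl⟩ := exists_conj (le_gen hP) (le_gen hQ)
        exact (inv_orb _ _).ncard_fx hg P, fun z hz => not_subset_orb w3 hz⟩
    have pure : ∀ k ∈ gen s, s ∩ σ (k • x) = s ∩ σ (k • y) := fun k hk => by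
      ext Q
      refine and_congr_right fun hQ => ⟨fun e g hg => fix_of_le w1 hk (le_gen hQ hg) (e g hg),
        fun e => by_contra fun e' => ?_⟩
      have a1 := del_quot' (le_gen hQ) w1 hk e e'
      have a2 := mul_nonneg (Nat.cast_nonneg (α := ℚ) (Nat.card ↥(gen s ⊓ stabilizer G y)))
        (w4 Q hQ).nonneg
      have a3 := mul_lt_mul_of_pos_left (hd Q hQ) h2
      nlinarith
    convert tc.toLines c2 using 1
    ext t
    exact ⟨fun ⟨_, ⟨k, hk, rfl⟩, e⟩ => ⟨_, ⟨k, hk, rfl⟩, (pure k hk).symm.trans e⟩,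
      fun ⟨_, ⟨k, hk, rfl⟩, e⟩ => ⟨_, ⟨k, hk, rfl⟩, (pure k hk).trans e⟩⟩
  · have h1 := del_quot (le_gen hP) w1
    have le : gen s ⊓ stabilizer G x ≤ gen s ⊓ stabilizer G y := le_inf inf_le_left w1
    obtain ⟨t, ht⟩ := Subgroup.card_dvd_of_le le
    have h3 : (0 : ℚ) < Nat.card ↥(gen s ⊓ stabilizer G y) := by exact_mod_cast Nat.card_pos
    rw [ht] at h1 h3
    push_cast at h1 h3
    rw [mul_assoc] at h1
    have h4 := le_of_mul_le_mul_left h1 h2
    have h5 : (0 : ℚ) < t := pos_of_mul_pos_left (by rwa [mul_comm] at h3) h2.le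
    have h6 : t = 1 := by
      by_contra e
      have : (2 : ℚ) ≤ t := by
        have : 0 < t := by exact_mod_cast h5
        exact_mod_cast (by omega : 2 ≤ t)
      have := hd P hP
      nlinarith
    subst h6
    have e := Subgroup.eq_of_le_of_card_ge le (by rw [ht, mul_one])
    refine Or.inl ⟨e ▸ w2, fun Q hQ => ?_⟩
    obtain ⟨g, hg, rfl⟩ := exists_conj (le_gen hP) (le_gen hQ)
    rw [(inv_orb _ _).del_smul hg]
    push_cast at h4
    linarith

theorem prim_cases {L : Subgroup G} {x : Y} (h : L ⊓ stabilizer G x ⋖ L) (y : Z)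
    (e : ∀ g ∈ L, g • x = x → g • y = y) :
    (∀ g ∈ L, g • y = y → g • x = x) ∨ ∀ g ∈ L, g • y = y := by
  rcases h.eq_or_eq (c := L ⊓ stabilizer G y) (fun g hg => ⟨hg.1, e g hg.1 hg.2⟩) inf_le_left with
    e1 | e1
  · exact Or.inl fun g hg hy => (e1.le ⟨hg, hy⟩).2
  · exact Or.inr fun g hg => (e1.ge hg).2

end Cfsg.Agent.SylOrb
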