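import Cfsg.Agent.SylOrb.Basic

/-!
Actions in which the Sylow subgroups act as one `p`-cycle.
-/

set_option autoImplicit false
set_option linter.unusedSectionVars false

namespace Cfsg.Agent.SylOrb

open MulAction Set
open scoped Pointwise

variable {G : Type*} [Group G] {p : ℕ} {Y Z : Type*} [MulAction G Y] [MulAction G Z]

local notation "σ" => sg G p

/-- the Sylow subgroups of `s` act on `O` as `p`-cycles with `j < p` fixed points, without a common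
fixed point -/
structure TC (s : Set (Sylow p G)) (O : Set Y) (j : ℕ) : Prop where
  cl : Cl s
  ne : s.Nonempty
  inv : Inv (gen s) O
  card : O.ncard = p + j
  lt : j < p
  fix : ∀ P ∈ s, (fx P O).ncard = j
  fpf : ∀ y ∈ O, ¬ s ⊆ σ y

variable {s : Set (Sylow p G)} {O : Set Y} {j : ℕ}

theorem TC.mono (h : TC s O j) {t : Set (Sylow p G)} (hts : t ⊆ s) (cl : Cl t) (ne : t.Nonempty)
    (fpf : ∀ y ∈ O, ¬ t ⊆ σ y) : TC t O j :=
  ⟨cl, ne, h.inv.mono (gen_mono hts), h.card, h.lt, fun P hP => h.fix P (hts hP), fpf⟩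

theorem fx_subset (P : Sylow p G) (X : Set Y) : fx P X ⊆ X := fun _ h => h.1

theorem mem_sg_smul_self {P : Sylow p G} {g : G} (hg : g ∈ (P : Subgroup G)) {x : Y} :
    P ∈ σ (g • x) ↔ P ∈ σ x := by
  refine ⟨fun h => ?_, fun h => by rwa [h g hg]⟩
  have := h _ (inv_mem hg)
  rw [inv_smul_smul] at this
  rwa [this]

theorem TC.smul (h : TC s O j) (g : G) : TC (g • s) (g • O) j where
  cl := h.cl.smul g
  ne := h.ne.smul_set
  inv := by
    rintro k hk _ ⟨y, hy, rfl⟩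
    exact ⟨_, h.inv _ (mem_gen_smul' hk) y hy, by simp [mul_smul]⟩
  card := (ncard_smul g O).trans h.card
  lt := h.lt
  fix := by
    rintro _ ⟨P, hP, rfl⟩
    rw [← h.fix P hP, ← ncard_smul g (fx P O)]
    exact congrArg _ (fx_smul g P O)
  fpf := by
    rintro _ ⟨y, hy, rfl⟩ e
    exact h.fpf y hy fun P hP => smul_mem_sg.1 (e (smul_mem_smul_set hP))

theorem TC.congr {X : Set Z} (h : TC s O j) (φ : Y → Z) (hi : InjOn φ O) (hX : φ '' O = X)
    (inv : Inv (gen s) X) (hf : ∀ P ∈ s, ∀ y ∈ O, P ∈ σ (φ y) ↔ P ∈ σ y) : TC s X j where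
  cl := h.cl
  ne := h.ne
  inv := inv
  card := by rw [← hX, hi.ncard_image, h.card]
  lt := h.lt
  fix := fun P hP => by
    rw [← h.fix P hP, ← (hi.mono (fx_subset P O)).ncard_image, ← hX]
    congr 1
    ext z
    exact ⟨fun ⟨⟨y, hy, e⟩, h2⟩ => ⟨y, ⟨hy, (hf P hP y hy).1 (e ▸ h2)⟩, e⟩,
      fun ⟨y, hy, e⟩ => ⟨⟨y, hy.1, e⟩, e ▸ (hf P hP y hy.1).2 hy.2⟩⟩
  fpf := by
    rw [← hX]
    rintro _ ⟨y, hy, rfl⟩ e
    exact h.fpf y hy fun P hP => (hf P hP y hy).1 (e hP)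

theorem TC.congr' {X : Set Z} (h : TC s O j) (φ : Z → Y) (hi : InjOn φ X) (hX : φ '' X = O)
    (inv : Inv (gen s) X) (hf : ∀ P ∈ s, ∀ y ∈ X, P ∈ σ (φ y) ↔ P ∈ σ y) : TC s X j where
  cl := h.cl
  ne := h.ne
  inv := inv
  card := by rw [← h.card, ← hX, hi.ncard_image]
  lt := h.lt
  fix := fun P hP => by
    rw [← h.fix P hP, ← (hi.mono (fx_subset P X)).ncard_image, ← hX]
    congr 1
    ext z
    exact ⟨fun ⟨y, hy, e⟩ => ⟨⟨y, hy.1, e⟩, e ▸ (hf P hP y hy.1).2 hy.2⟩,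
      fun ⟨⟨y, hy, e⟩, h2⟩ => ⟨y, ⟨hy, (hf P hP y hy).1 (e ▸ h2)⟩, e⟩⟩
  fpf := fun y hy e => h.fpf (φ y) (hX ▸ mem_image_of_mem φ hy) fun P hP =>
    (hf P hP y hy).2 (e hP)

variable [Finite G] [hp : Fact p.Prime] [Finite Y] [Finite Z]

theorem TC.supp_card (h : TC s O j) {P : Sylow p G} (hP : P ∈ s) : (O \ fx P O).ncard = p := by
  have := ncard_sdiff_add_ncard_of_subset (fx_subset P O)
  rw [h.card, h.fix P hP] at this
  omega

theorem TC.supp_trans (h : TC s O j) {P : Sylow p G} (hP : P ∈ s) {x y : Y} (hx : x ∈ O)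
    (hy : y ∈ O) (hx' : P ∉ σ x) (hy' : P ∉ σ y) : ∃ g ∈ (P : Subgroup G), g • x = y := by
  have h1 : orb (P : Subgroup G) x ⊆ O \ fx P O := by
    rintro _ ⟨g, hg, rfl⟩
    exact ⟨h.inv g (le_gen hP hg) x hx, fun e => hx' ((mem_sg_smul_self hg).1 e.2)⟩
  have h2 := eq_of_subset_of_ncard_le h1 ((h.supp_card hP).trans_le (le_ncard_orb' hx'))
  exact h2.ge ⟨hy, fun e => hy' e.2⟩

theorem TC.trans (h : TC s O j) {x y : Y} (hx : x ∈ O) (hy : y ∈ O) :
    ∃ g ∈ gen s, g • x = y := by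
  obtain ⟨P, hP, hx'⟩ := not_subset.1 (h.fpf x hx)
  obtain ⟨Q, hQ, hy'⟩ := not_subset.1 (h.fpf y hy)
  have : ¬ Disjoint (O \ fx P O) (O \ fx Q O) := fun e => by
    have h1 := ncard_union_eq e
    have h2 := ncard_le_ncard (union_subset (sdiff_subset (t := fx P O))
      (sdiff_subset (s := O) (t := fx Q O)))
    rw [h1, h.supp_card hP, h.supp_card hQ, h.card] at h2
    have := h.lt
    omega
  obtain ⟨z, z1, z2⟩ := not_disjoint_iff.1 this
  obtain ⟨a, ha, e1⟩ := h.supp_trans hP hx z1.1 hx' fun e => z1.2 ⟨z1.1, e⟩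
  obtain ⟨b, hb, e2⟩ := h.supp_trans hQ z1.1 hy (fun e => z2.2 ⟨z1.1, e⟩) hy'
  exact ⟨b * a, mul_mem (le_gen hQ hb) (le_gen hP ha), by rw [mul_smul, e1, e2]⟩

theorem TC.orb_eq (h : TC s O j) {x : Y} (hx : x ∈ O) : orb (gen s) x = O :=
  (h.inv.orb_subset hx).antisymm fun _ hy => h.trans hx hy

theorem TC.nu (h : TC s O j) {x : Y} (hx : x ∈ O) : (p + j) * (s ∩ σ x).ncard = s.ncard * j := by
  obtain ⟨P, hP⟩ := h.ne
  have := nu_orb h.cl hP x
  rwa [h.orb_eq hx, h.card, h.fix P hP] at this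

theorem TC.exists_fix (h : TC s O j) (hj : 1 ≤ j) {x : Y} (hx : x ∈ O) : (s ∩ σ x).Nonempty := by
  have h1 := h.nu hx
  have h2 := (ncard_pos (toFinite s)).2 h.ne
  rw [← ncard_pos (toFinite _)]
  exact Nat.pos_of_mul_pos_left (h1 ▸ Nat.mul_pos h2 hj)

theorem TC.eq_of_subset (h : TC s O j) (hj : 1 ≤ j) {x y : Y} (hx : x ∈ O) (hy : y ∈ O)
    (e : s ∩ σ x ⊆ σ y) : x = y := by
  obtain ⟨k, hk, rfl⟩ := h.trans hx hy
  have e1 : s ∩ σ x = s ∩ σ (k • x) := eq_of_subset_of_ncard_le (subset_inter inter_subset_left e)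
    (by rw [h.cl.inter_smul hk, ncard_smul])
  obtain ⟨P, hP, hx'⟩ := not_subset.1 (h.fpf x hx)
  obtain ⟨g, hg, e2⟩ := h.supp_trans hP hx hy hx' fun e => hx' (e1.ge ⟨hP, e⟩).2
  have := mem_gen_of_smul (h.exists_fix hj hx) hg
    (by rw [← h.cl.inter_smul (le_gen hP hg), e2, e1])
  rw [← e2, smul_of_gen inter_subset_right this]

theorem TC.step (h : TC s O (j + 1)) {x : Y} (hx : x ∈ O) : TC (s ∩ σ x) (O \ {x}) j where
  cl := h.cl.inter (cl_sg x)
  ne := h.exists_fix (by omega) hx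
  inv := (h.inv.mono (gen_mono inter_subset_left)).diff
    (inv_singleton fun _ hg => smul_of_gen inter_subset_right hg)
  card := by
    have := ncard_sdiff_singleton_add_one hx
    rw [h.card] at this
    omega
  lt := by have := h.lt; omega
  fix := fun P hP => by
    have h1 := ncard_sdiff_singleton_add_one (show x ∈ fx P O from ⟨hx, hP.2⟩)
    rw [h.fix P hP.1] at h1
    have : fx P (O \ {x}) = fx P O \ {x} := by
      ext y
      simp only [fx, mem_ofPred_eq, mem_sdiff]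
      tauto
    rw [this]
    omega
  fpf := fun y hy e => hy.2 (h.eq_of_subset (by omega) hx hy.1 e).symm

theorem TC.step' (h : TC s O j) (hj : 1 ≤ j) {x : Y} (hx : x ∈ O) :
    TC (s ∩ σ x) (O \ {x}) (j - 1) := by
  obtain ⟨j, rfl⟩ : ∃ i, j = i + 1 := ⟨j - 1, by omega⟩
  exact h.step hx

theorem TC.two_trans (h : TC s O j) (hj : 1 ≤ j) {x y x' y' : Y} (hx : x ∈ O) (hy : y ∈ O)
    (hx' : x' ∈ O) (hy' : y' ∈ O) (e : y ≠ x) (e' : y' ≠ x') :
    ∃ g ∈ gen s, g • x = x' ∧ g • y = y' := by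
  obtain ⟨a, ha, rfl⟩ := h.trans hx hx'
  obtain ⟨b, hb, e2⟩ := (h.step' hj hx').trans (x := a • y) (y := y')
    ⟨h.inv a ha y hy, fun e1 => e (smul_left_cancel a e1)⟩ ⟨hy', e'⟩
  refine ⟨b * a, mul_mem (gen_mono inter_subset_left hb) ha, ?_, by rw [mul_smul, e2]⟩
  rw [mul_smul, smul_of_gen inter_subset_right hb]

theorem TC.homog (k : ℕ) : ∀ {s : Set (Sylow p G)} {O : Set Y} {j : ℕ}, TC s O j → k ≤ j →
    ∀ A ⊆ O, ∀ B ⊆ O, A.ncard = k → B.ncard = k → ∃ g ∈ gen s, g • A = B := by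
  induction k with
  | zero =>
    intro s O j _ _ A _ B _ hA hB
    rw [ncard_eq_zero] at hA hB
    exact ⟨1, one_mem _, by rw [hA, hB, one_smul]⟩
  | succ k ih =>
    intro s O j h hk A hA B hB cA cB
    obtain ⟨a, ha⟩ := nonempty_of_ncard_ne_zero (s := A) (by omega)
    obtain ⟨b, hb⟩ := nonempty_of_ncard_ne_zero (s := B) (by omega)
    obtain ⟨g, hg, rfl⟩ := h.trans (hA ha) (hB hb)
    have ha' : g • a ∈ g • A := smul_mem_smul_set ha
    have c1 := ncard_sdiff_singleton_add_one ha'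
    have c2 := ncard_sdiff_singleton_add_one hb
    rw [ncard_smul] at c1
    obtain ⟨u, hu, e⟩ := ih (h.step' (by omega) (hB hb)) (by omega) (g • A \ {g • a})
      (sdiff_subset_sdiff_left (by rintro _ ⟨y, hy, rfl⟩; exact h.inv g hg y (hA hy)))
      (B \ {g • a}) (sdiff_subset_sdiff_left hB) (by omega) (by omega)
    refine ⟨u * g, mul_mem (gen_mono inter_subset_left hu) hg, ?_⟩
    rw [mul_smul, ← sdiff_union_of_subset (singleton_subset_iff.2 ha'), smul_set_union, e,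
      smul_set_singleton, smul_of_gen inter_subset_right hu,
      sdiff_union_of_subset (singleton_subset_iff.2 hb)]

theorem TC.nontrivial (h : TC s O j) (x : Y) : ∃ y ∈ O, y ≠ x := by
  have h2 := hp.out.two_le
  obtain ⟨a, ha, b, hb, e⟩ := (one_lt_ncard (toFinite O)).1 (by rw [h.card]; omega)
  by_cases e1 : a = x
  · exact ⟨b, hb, fun e2 => e (e1.trans e2.symm)⟩
  · exact ⟨a, ha, e1⟩

theorem TC.exists_fx (h : TC s O j) (hj : 1 ≤ j) {P : Sylow p G} (hP : P ∈ s) :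
    ∃ y ∈ O, P ∈ σ y := by
  obtain ⟨y, hy⟩ := nonempty_of_ncard_ne_zero (s := fx P O) (by rw [h.fix P hP]; omega)
  exact ⟨y, hy.1, hy.2⟩

theorem TC.exists_fx_two (h : TC s O j) (hj : 2 ≤ j) {P : Sylow p G} (hP : P ∈ s) :
    ∃ y ∈ O, ∃ z ∈ O, z ≠ y ∧ P ∈ σ y ∧ P ∈ σ z := by
  obtain ⟨a, ha, b, hb, e⟩ := (one_lt_ncard (toFinite (fx P O))).1 (by rw [h.fix P hP]; omega)
  exact ⟨a, ha.1, b, hb.1, e.symm, ha.2, hb.2⟩

theorem TC.toLines (h : TC s O j) (hj : 1 ≤ j) : TC s ((fun z => s ∩ σ z) '' O) j := by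
  refine h.congr _ (fun x hx y hy e => h.eq_of_subset hj hx hy (e.le.trans inter_subset_right)) rfl
    ?_ fun P hP y hy => ?_
  · rintro g hg _ ⟨y, hy, rfl⟩
    exact ⟨g • y, h.inv g hg y hy, h.cl.inter_smul hg y⟩
  · rw [sg_line (h.cl.inter (cl_sg y)) (h.exists_fix hj hy)]
    exact ⟨fun e => e.2, fun e => ⟨hP, e⟩⟩

/-- comparing the proportions of fixed points -/
theorem TC.not_subset {O' : Set Z} (h : TC s O (j + 1)) (h' : TC s O' j) {x : Y} (hx : x ∈ O)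
    {y : Z} (hy : y ∈ O') : ¬ s ∩ σ x ⊆ σ y := fun e => by
  have h1 := h.nu hx
  have h2 := h'.nu hy
  have h3 : (s ∩ σ x).ncard ≤ (s ∩ σ y).ncard :=
    ncard_le_ncard (subset_inter inter_subset_left e)
  have h4 := (ncard_pos (toFinite s)).2 h.ne
  have h5 := hp.out.pos
  have h6 : (p + j) * ((p + (j + 1)) * (s ∩ σ x).ncard) ≤
      (p + (j + 1)) * ((p + j) * (s ∩ σ y).ncard) := by
    rw [mul_left_comm]
    gcongr
  rw [h1, h2] at h6
  nlinarith [Nat.mul_pos h4 h5]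

end Cfsg.Agent.SylOrb
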